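import Cfsg.Agent.Lib.Helper44.UMult
import Cfsg.Agent.Lib.Helper44.SUa

/-!
# Character degrees of `PSU(3,3)`: abstract configuration

`CfgU F G` records the facts on `G = SU(3,3)` (order 6048) used by the character-theoretic argument:
`Q` a Sylow 3-subgroup (extraspecial of order 27) with centre `Z`, `B = N(Q) = Q : 8`.
For a class function `χ` the numbers `lU, aU, bU` are the multiplicities in `χ|_Q` of the trivial
character, of a nontrivial linear character and of a character of degree 3.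
-/

set_option autoImplicit false

namespace Cfsg.Agent.Lib.Helper44.U33

open Cfsg
open scoped ComplexConjugate

structure CfgU (F : Type*) [Field F] [Fintype F] (G : Type*) [Group G] where
  Q : Subgroup G
  Z : Subgroup G
  B : Subgroup G
  α : Q →* Multiplicative F
  δ : B →* Fˣ
  z0 : G
  u0 : G
  hF : Fintype.card F = 9
  hZQ : Z ≤ Q
  hQB : Q ≤ B
  hα : Function.Surjective α
  hαk : ∀ x : Q, α x = 1 ↔ (x : G) ∈ Z
  hZ : Nat.card Z = 3
  hcen : ∀ z ∈ Z, ∀ x ∈ Q, z * x = x * z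
  hcomm : ∀ y ∈ Q, y ∉ Z → ∃ x ∈ Q, x * y * x⁻¹ * y⁻¹ ∈ Z ∧ x * y * x⁻¹ * y⁻¹ ≠ 1
  hz0 : z0 ∈ Z ∧ z0 ≠ 1
  hu0 : u0 ∈ Q ∧ u0 ∉ Z
  hconjZ : ∀ y ∈ Z, y ≠ 1 → IsConj z0 y
  hconjU : ∀ y ∈ Q, y ∉ Z → IsConj u0 y
  hcard : Nat.card G = 6048
  hcz : Nat.card {z : G // z * z0 = z0 * z} = 108
  hcu : Nat.card {z : G // z * u0 = u0 * z} = 9
  hδ : ∀ x : B, δ x = 1 ↔ (x : G) ∈ Q
  hδs : Function.Surjective δ
  hfix : ∀ y ∈ Q, y ≠ 1 → ∀ x : G, x⁻¹ * y * x ∈ B → x ∈ B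
  hperf : commutator G = ⊤

variable {F : Type*} [Field F] [Fintype F] {G : Type*} [Group G]

/-- multiplicity of the trivial character of `Q`. -/
noncomputable def lU (C : CfgU F G) (χ : G → ℂ) : ℂ := (χ 1 + 2 * χ C.z0 + 24 * χ C.u0) / 27

/-- multiplicity of a nontrivial linear character of `Q`. -/
noncomputable def aU (C : CfgU F G) (χ : G → ℂ) : ℂ := (χ 1 + 2 * χ C.z0 - 3 * χ C.u0) / 27

/-- multiplicity of a character of degree three of `Q`. -/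
noncomputable def bU (C : CfgU F G) (χ : G → ℂ) : ℂ := (χ 1 - χ C.z0) / 9

theorem degree_eq (C : CfgU F G) (χ : G → ℂ) : χ 1 = lU C χ + 8 * aU C χ + 6 * bU C χ := by
  unfold lU aU bU; ring

theorem lU_add (C : CfgU F G) (χ₁ χ₂ : G → ℂ) : lU C (χ₁ + χ₂) = lU C χ₁ + lU C χ₂ := by
  unfold lU; simp only [Pi.add_apply]; ring

theorem aU_add (C : CfgU F G) (χ₁ χ₂ : G → ℂ) : aU C (χ₁ + χ₂) = aU C χ₁ + aU C χ₂ := by
  unfold aU; simp only [Pi.add_apply]; ring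

theorem bU_add (C : CfgU F G) (χ₁ χ₂ : G → ℂ) : bU C (χ₁ + χ₂) = bU C χ₁ + bU C χ₂ := by
  unfold bU; simp only [Pi.add_apply]; ring

/-- the hyperbolic Hermitian Gram matrix on `F^3`. -/
def JU (F : Type*) [Field F] : Matrix (Fin 3) (Fin 3) F := !![0, 0, 1; 0, 1, 0; 1, 0, 0]

/-- the unipotent matrices (in the unitary group when `b + b^3 + a * a^3 = 0`). -/
def Tm (a b : F) : Matrix (Fin 3) (Fin 3) F := !![1, -(a ^ 3), b; 0, 1, a; 0, 0, 1]

/-- the diagonal matrices `diag(k, k^2, k^(-3))`. -/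
def Dm (k : F) : Matrix (Fin 3) (Fin 3) F := !![k, 0, 0; 0, k ^ 2, 0; 0, 0, (k ^ 3)⁻¹]

/-- the group `SU(3,3)` in hyperbolic coordinates. -/
abbrev GU (F : Type*) [Field F] : Subgroup (Matrix.SpecialLinearGroup (Fin 3) F) :=
  Cfsg.Agent.Lib.Helper44.UJ 3 (JU F)

end Cfsg.Agent.Lib.Helper44.U33
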