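import Cfsg.Prelude.Def_DegreeGraph
import Cfsg.Agent.Lib.Helper77.GlaubCore

set_option autoImplicit false

namespace Cfsg.Agent.Lib.Helper44.U33

open Cfsg

theorem graphu_dvd {S : Type*} [Group S] (hcard : Nat.card S = 6048) {d : ℕ}
    (h : d ∈ Cfsg.charDegrees S) : d ∣ 6048 := by
  have : Finite S := Nat.finite_of_card_ne_zero (by rw [hcard]; norm_num)
  obtain ⟨χ, hχ⟩ := h
  obtain ⟨e, he1, he2, -⟩ := Cfsg.Agent.Lib.Helper77.irr_degree_dvd χ.2
  have : charDegree (χ : S → ℂ) = e := by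
    unfold charDegree
    rw [he1]
    simp
  rw [← hχ, this, ← hcard]
  exact he2

theorem graphu_prime {p : ℕ} (hp : p.Prime) (h : p ∣ 6048) : p = 2 ∨ p = 3 ∨ p = 7 := by
  have e : (6048 : ℕ) = 2 ^ 5 * 3 ^ 3 * 7 := by norm_num
  rw [e] at h
  rcases (Nat.Prime.dvd_mul hp).1 h with h | h
  · rcases (Nat.Prime.dvd_mul hp).1 h with h | h
    · left; exact (Nat.prime_dvd_prime_iff_eq hp Nat.prime_two).1 (hp.dvd_of_dvd_pow h)
    · right; left; exact (Nat.prime_dvd_prime_iff_eq hp Nat.prime_three).1 (hp.dvd_of_dvd_pow h)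
  · right; right; exact (Nat.prime_dvd_prime_iff_eq hp (by norm_num)).1 h

/-- a group of order 6048 with irreducible degrees divisible by 6, 14, 21: the degree graph is the
triangle on `{2, 3, 7}`. -/
theorem graph_of_degrees {S : Type*} [Group S] (hcard : Nat.card S = 6048) {d1 d2 d3 : ℕ}
    (h1 : d1 ∈ Cfsg.charDegrees S) (h2 : d2 ∈ Cfsg.charDegrees S) (h3 : d3 ∈ Cfsg.charDegrees S)
    (h6 : 6 ∣ d1) (h14 : 14 ∣ d2) (h21 : 21 ∣ d3) :
    Cfsg.degreePrimes S = {2, 3, 7} ∧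
    ∀ r s : ℕ, (Cfsg.degreeGraph S).Adj r s ↔
      (r ≠ s ∧ (r = 2 ∨ r = 3 ∨ r = 7) ∧ (s = 2 ∨ s = 3 ∨ s = 7)) := by
  have p7 : Nat.Prime 7 := by norm_num
  constructor
  · ext p
    simp only [Cfsg.degreePrimes, Set.mem_ofPred_eq, Set.mem_insert_iff, Set.mem_singleton_iff]
    constructor
    · rintro ⟨hp, d, hd, hpd⟩
      exact graphu_prime hp (hpd.trans (graphu_dvd hcard hd))
    · rintro (rfl | rfl | rfl)
      · exact ⟨Nat.prime_two, d1, h1, (by norm_num : 2 ∣ 6).trans h6⟩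
      · exact ⟨Nat.prime_three, d1, h1, (by norm_num : 3 ∣ 6).trans h6⟩
      · exact ⟨p7, d2, h2, (by norm_num : 7 ∣ 14).trans h14⟩
  · intro r s
    constructor
    · rintro ⟨hne, hr, hs, d, hd, hrs⟩
      have hd' := graphu_dvd hcard hd
      exact ⟨hne, graphu_prime hr (((Dvd.intro _ rfl).trans hrs).trans hd'),
        graphu_prime hs (((Dvd.intro_left _ rfl).trans hrs).trans hd')⟩
    · rintro ⟨hne, hr, hs⟩
      rcases hr with rfl | rfl | rfl <;> rcases hs with rfl | rfl | rfl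
      · exact absurd rfl hne
      · exact ⟨hne, Nat.prime_two, Nat.prime_three, d1, h1, h6⟩
      · exact ⟨hne, Nat.prime_two, p7, d2, h2, h14⟩
      · exact ⟨hne, Nat.prime_three, Nat.prime_two, d1, h1, h6⟩
      · exact absurd rfl hne
      · exact ⟨hne, Nat.prime_three, p7, d3, h3, h21⟩
      · exact ⟨hne, p7, Nat.prime_two, d2, h2, h14⟩
      · exact ⟨hne, p7, Nat.prime_three, d3, h3, h21⟩
      · exact absurd rfl hne

end Cfsg.Agent.Lib.Helper44.U33
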