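import Cfsg.Prelude.Def_DegreeGraph
import Cfsg.Agent.Lib.Helper19.IndFun2
import Cfsg.Agent.Lib.Helper19.IndChar
import Cfsg.Agent.Lib.Helper5.IndDeg
import Cfsg.Agent.Lib.Helper44.CharTools
import Cfsg.Agent.Lib.Helper20.CharOrth
import Cfsg.Agent.S0193

set_option autoImplicit false

namespace Cfsg.Agent.Lib.Helper44.U33

open Cfsg

section core

variable (R : Type) [CommRing R]

/-- the action of the units on the additive group. -/
def solvPhi : Rˣ →* MulAut (Multiplicative R) where
  toFun u :=
    { toFun := fun x => Multiplicative.ofAdd ((u : R) * Multiplicative.toAdd x)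
      invFun := fun x => Multiplicative.ofAdd (((u⁻¹ : Rˣ) : R) * Multiplicative.toAdd x)
      left_inv := fun x => by simp
      right_inv := fun x => by simp
      map_mul' := fun x y => by simp [mul_add] }
  map_one' := by
    ext x
    simp
  map_mul' u v := by
    ext x
    simp [mul_assoc]

theorem solvPhi_apply (u : Rˣ) (x : Multiplicative R) :
    solvPhi R u x = Multiplicative.ofAdd ((u : R) * Multiplicative.toAdd x) := rfl

/-- the affine group `R ⋊ Rˣ`. -/
abbrev SolvG : Type := Multiplicative R ⋊[solvPhi R] Rˣ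

/-- the translation subgroup. -/
abbrev solvK : Subgroup (SolvG R) := (SemidirectProduct.rightHom : SolvG R →* Rˣ).ker

variable {R}

/-- an additive character as a linear character of the translation subgroup. -/
noncomputable def solvTheta (ψ : AddChar R ℂ) : solvK R →* ℂ where
  toFun k := ψ (Multiplicative.toAdd k.1.left)
  map_one' := by simp
  map_mul' k k' := by
    have h : k.1.right = 1 := k.2
    have e : ((k * k' : solvK R) : SolvG R).left = k.1.left * k'.1.left := by
      rw [Subgroup.coe_mul, SemidirectProduct.mul_left, h, map_one]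
      rfl
    rw [e, toAdd_mul, AddChar.map_add_eq_mul]

theorem solvTheta_apply (ψ : AddChar R ℂ) (k : solvK R) :
    solvTheta ψ k = ψ (Multiplicative.toAdd k.1.left) := rfl

theorem solv_conj_left (g h : SolvG R) (hh : h.right = 1) :
    (g * h * g⁻¹).left = Multiplicative.ofAdd ((g.right : R) * Multiplicative.toAdd h.left) := by
  rw [SemidirectProduct.mul_left, SemidirectProduct.mul_left, SemidirectProduct.mul_right, hh,
    mul_one, SemidirectProduct.inv_left, ← MulAut.mul_apply, ← map_mul, mul_inv_cancel, map_one,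
    MulAut.one_apply, mul_comm, inv_mul_cancel_left, solvPhi_apply]

theorem solv_core [Finite R] (ψ : AddChar R ℂ)
    (hψ : ∀ u : Rˣ, (∀ x : R, ψ ((u : R) * x) = ψ x) → u = 1) :
    Nat.card Rˣ ∈ Cfsg.charDegrees (SolvG R) := by
  classical
  have : Finite (SolvG R) := Finite.of_equiv _ SemidirectProduct.equivProd.symm
  have := Fintype.ofFinite (SolvG R)
  have hl : IsIrrCharacter (solvK R) (solvTheta ψ) := isIrrCharacter_monoidHom (solvTheta ψ)
  have h1 := Cfsg.Agent.S0193.result (solvK R) (solvTheta ψ) hl
  have h2 : Nat.card {g : SolvG R // ∀ h : solvK R,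
      solvTheta ψ ⟨g * h * g⁻¹, (inferInstance : (solvK R).Normal).conj_mem h h.2 g⟩ =
        solvTheta ψ h} = Nat.card (solvK R) := by
    apply Nat.card_congr
    apply Equiv.subtypeEquivRight
    intro g
    constructor
    · intro hg
      change g.right = 1
      apply hψ
      intro x
      have := hg ⟨⟨Multiplicative.ofAdd x, 1⟩, rfl⟩
      rw [solvTheta_apply, solvTheta_apply] at this
      simp only [solv_conj_left g ⟨Multiplicative.ofAdd x, 1⟩ rfl] at this
      exact this
    · intro hg h
      have hg' : g.right = 1 := hg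
      rw [solvTheta_apply, solvTheta_apply]
      simp only [solv_conj_left g h.1 h.2, hg']
      simp
  rw [h2] at h1
  have h0 : (Nat.card (solvK R) : ℂ) ≠ 0 := by exact_mod_cast Nat.card_pos.ne'
  have h3 : classInner (indFun (solvK R) (solvTheta ψ)) (indFun (solvK R) (solvTheta ψ)) = 1 :=
    mul_left_cancel₀ h0 (by rw [h1, mul_one])
  have h4 : IsIrrCharacter (SolvG R) (indFun (solvK R) (solvTheta ψ)) :=
    Cfsg.Agent.Lib.Helper20.isIrrCharacter_of_classInner_self
      (Cfsg.Agent.Lib.Helper19.isCharacter_indFun _ _ (isCharacter_monoidHom (solvTheta ψ))) h3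
  refine ⟨⟨_, h4⟩, ?_⟩
  change ⌊(indFun (solvK R) (solvTheta ψ) 1).re⌋₊ = _
  rw [Cfsg.Agent.Lib.Helper5.indFun_one, map_one, mul_one, Subgroup.index_ker,
    MonoidHom.range_eq_top.mpr SemidirectProduct.rightHom_surjective]
  rw [Nat.card_congr Subgroup.topEquiv.toEquiv]
  simp

theorem solv_solvable : Group.IsSolvable (SolvG R) :=
  Group.isSolvable_of_ker_le_range (SemidirectProduct.inl : Multiplicative R →* SolvG R)
    (SemidirectProduct.rightHom : SolvG R →* Rˣ)
    (by rw [SemidirectProduct.range_inl_eq_ker_rightHom])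

end core

/-- a solvable group of order 6048 with an irreducible character of degree divisible by 42. -/
theorem exists_solvable : ∃ (H : Type) (_ : Group H) (_ : Fintype H), Group.IsSolvable H ∧
    Nat.card H = 6048 ∧ ∃ d ∈ Cfsg.charDegrees H, 42 ∣ d := by
  classical
  have hF8 : Nat.card (GaloisField 2 3) = 8 := by
    rw [GaloisField.card 2 3 (by norm_num)]; norm_num
  have : Finite (GaloisField 2 3) := Nat.finite_of_card_ne_zero (by rw [hF8]; norm_num)
  have hU : Nat.card (GaloisField 2 3 × ZMod 18)ˣ = 42 := by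
    rw [Nat.card_congr (MulEquiv.prodUnits (M := GaloisField 2 3) (N := ZMod 18)).toEquiv,
      Nat.card_prod, Nat.card_units, hF8, Nat.card_eq_fintype_card, ZMod.card_units_eq_totient]
    decide
  have : Finite (SolvG (GaloisField 2 3 × ZMod 18)) :=
    Finite.of_equiv _ SemidirectProduct.equivProd.symm
  obtain ⟨ψ1, h1⟩ := (AddChar.exists_apply_ne_zero (α := GaloisField 2 3) (a := 1)).mpr one_ne_zero
  let ψ : AddChar (GaloisField 2 3 × ZMod 18) ℂ :=
    (ψ1.compAddMonoidHom (AddMonoidHom.fst _ _)) *
      ((ZMod.stdAddChar (N := 18)).compAddMonoidHom (AddMonoidHom.snd _ _))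
  have hψa : ∀ x : GaloisField 2 3 × ZMod 18, ψ x = ψ1 x.1 * ZMod.stdAddChar x.2 := fun x => rfl
  refine ⟨SolvG (GaloisField 2 3 × ZMod 18), inferInstance, Fintype.ofFinite _, solv_solvable, ?_,
    _, solv_core ψ ?_, by rw [hU]⟩
  · rw [SemidirectProduct.card, hU]
    change Nat.card (GaloisField 2 3 × ZMod 18) * 42 = _
    rw [Nat.card_prod, hF8, Nat.card_zmod]
  · intro u hu
    apply Units.ext
    apply Prod.ext
    · by_contra hne
      have hne' : (u : GaloisField 2 3 × ZMod 18).1 - 1 ≠ 0 := sub_ne_zero.mpr hne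
      have := hu (((u : GaloisField 2 3 × ZMod 18).1 - 1)⁻¹, 0)
      rw [hψa, hψa] at this
      simp only [Prod.fst_mul, Prod.snd_mul, mul_zero, AddChar.map_zero_eq_one, mul_one] at this
      apply h1
      have e : (u : GaloisField 2 3 × ZMod 18).1 * ((u : GaloisField 2 3 × ZMod 18).1 - 1)⁻¹ =
          1 + ((u : GaloisField 2 3 × ZMod 18).1 - 1)⁻¹ := by
        field_simp
        ring
      rw [e, AddChar.map_add_eq_mul] at this
      have hne0 : ψ1 ((u : GaloisField 2 3 × ZMod 18).1 - 1)⁻¹ ≠ 0 := (ψ1.val_isUnit _).ne_zero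
      exact mul_right_cancel₀ hne0 (by rw [this, one_mul])
    · have := hu (0, 1)
      rw [hψa, hψa] at this
      simp only [Prod.fst_mul, Prod.snd_mul, mul_zero, AddChar.map_zero_eq_one, mul_one,
        one_mul] at this
      exact ZMod.injective_stdAddChar this

end Cfsg.Agent.Lib.Helper44.U33
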