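import Cfsg.Agent.Lib.Helper34.K9

set_option autoImplicit false

namespace Cfsg.Agent.Lib.Helper44.U33

open Cfsg

variable {F : Type*} [Field F] [Fintype F]

open Cfsg.Agent.Lib.Helper34 (K9)

/-- the transport isomorphism -/
noncomputable def ufPhi (hF : Fintype.card F = 9) : K9 ≃+* F :=
  FiniteField.ringEquivOfCardEq (by rw [K9.card, hF])

theorem uf_zero_iff (hF : Fintype.card F = 9) (x : K9) : ufPhi hF x = 0 ↔ x = 0 :=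
  map_eq_zero_iff (ufPhi hF) (ufPhi hF).injective

theorem uf_one_iff (hF : Fintype.card F = 9) (x : K9) : ufPhi hF x = 1 ↔ x = 1 :=
  map_eq_one_iff (ufPhi hF) (ufPhi hF).injective

theorem uf_k1 : ∃ ε : K9, ε ≠ 0 ∧ ε + ε ^ 3 = 0 := by decide +kernel
theorem uf_k2 : Fintype.card {b : K9 // b + b ^ 3 = 0} = 3 := by decide +kernel
theorem uf_k3 : ∀ a : K9, ∃ b : K9, b + b ^ 3 + a * a ^ 3 = 0 := by decide +kernel
theorem uf_k4 : Fintype.card {p : K9 × K9 // p.2 + p.2 ^ 3 + p.1 * p.1 ^ 3 = 0} = 27 := by decide +kernel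
theorem uf_k5 : Fintype.card {p : K9 × K9 // p.2 + p.2 ^ 3 + p.1 * p.1 ^ 3 = 0 ∧ p.1 ^ 3 = p.1} = 9 := by
  decide +kernel
theorem uf_k6 : Fintype.card {k : K9 // k ≠ 0 ∧ k ^ 4 = 1} = 4 := by decide +kernel
theorem uf_k7 : ∀ b c : K9, b ≠ 0 → b + b ^ 3 = 0 → c ≠ 0 → c + c ^ 3 = 0 → ∃ k : K9, k ≠ 0 ∧ k ^ 4 * b = c := by
  decide +kernel
theorem uf_k8 : ∀ e : K9, e + e ^ 3 = 0 → ∃ c : K9, c ^ 3 - c = e := by decide +kernel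
theorem uf_k9 : ∀ a : K9, a ≠ 0 → ∃ k : K9, k ≠ 0 ∧ k ^ 5 * a = 1 := by decide +kernel
theorem uf_k10 : ∀ k : K9, k ^ 5 = 1 → k = 1 := by decide +kernel
theorem uf_k11 : ∀ a : K9, a ≠ 0 → ∃ c : K9, a ^ 3 * c - c ^ 3 * a ≠ 0 := by decide +kernel

theorem exists_skew (hF : Fintype.card F = 9) : ∃ ε : F, ε ≠ 0 ∧ ε + ε ^ 3 = 0 := by
  obtain ⟨e, h1, h2⟩ := uf_k1
  refine ⟨ufPhi hF e, fun h => h1 ((uf_zero_iff hF e).1 h), ?_⟩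
  rw [← map_pow, ← map_add, h2, map_zero]

theorem card_skew (hF : Fintype.card F = 9) : Nat.card {b : F // b + b ^ 3 = 0} = 3 := by
  refine Eq.trans ?_ ((Nat.card_eq_fintype_card).trans uf_k2)
  symm
  apply Nat.card_congr
  refine Equiv.subtypeEquiv (ufPhi hF).toEquiv (fun b => ?_)
  show b + b ^ 3 = 0 ↔ ufPhi hF b + ufPhi hF b ^ 3 = 0
  rw [← map_pow, ← map_add, uf_zero_iff]

theorem exists_nt (hF : Fintype.card F = 9) (a : F) : ∃ b : F, b + b ^ 3 + a * a ^ 3 = 0 := by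
  obtain ⟨a, rfl⟩ := (ufPhi hF).surjective a
  obtain ⟨b, hb⟩ := uf_k3 a
  refine ⟨ufPhi hF b, ?_⟩
  rw [← map_pow, ← map_pow, ← map_mul, ← map_add, ← map_add, hb, map_zero]

theorem card_S (hF : Fintype.card F = 9) :
    Nat.card {p : F × F // p.2 + p.2 ^ 3 + p.1 * p.1 ^ 3 = 0} = 27 := by
  rw [← uf_k4, ← Nat.card_eq_fintype_card]
  symm
  apply Nat.card_congr
  refine Equiv.subtypeEquiv ((ufPhi hF).toEquiv.prodCongr (ufPhi hF).toEquiv) (fun p => ?_)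
  show p.2 + p.2 ^ 3 + p.1 * p.1 ^ 3 = 0 ↔
    ufPhi hF p.2 + ufPhi hF p.2 ^ 3 + ufPhi hF p.1 * ufPhi hF p.1 ^ 3 = 0
  rw [← map_pow, ← map_pow, ← map_mul, ← map_add, ← map_add, uf_zero_iff]

theorem card_S3 (hF : Fintype.card F = 9) :
    Nat.card {p : F × F // p.2 + p.2 ^ 3 + p.1 * p.1 ^ 3 = 0 ∧ p.1 ^ 3 = p.1} = 9 := by
  rw [← uf_k5, ← Nat.card_eq_fintype_card]
  symm
  apply Nat.card_congr
  refine Equiv.subtypeEquiv ((ufPhi hF).toEquiv.prodCongr (ufPhi hF).toEquiv) (fun p => ?_)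
  show (p.2 + p.2 ^ 3 + p.1 * p.1 ^ 3 = 0 ∧ p.1 ^ 3 = p.1) ↔
    (ufPhi hF p.2 + ufPhi hF p.2 ^ 3 + ufPhi hF p.1 * ufPhi hF p.1 ^ 3 = 0 ∧ ufPhi hF p.1 ^ 3 = ufPhi hF p.1)
  rw [← map_pow, ← map_pow, ← map_mul, ← map_add, ← map_add, uf_zero_iff, (ufPhi hF).injective.eq_iff]

theorem card_mu4 (hF : Fintype.card F = 9) : Nat.card {k : F // k ≠ 0 ∧ k ^ 4 = 1} = 4 := by
  refine Eq.trans ?_ ((Nat.card_eq_fintype_card).trans uf_k6)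
  symm
  apply Nat.card_congr
  refine Equiv.subtypeEquiv (ufPhi hF).toEquiv (fun k => ?_)
  show (k ≠ 0 ∧ k ^ 4 = 1) ↔ (ufPhi hF k ≠ 0 ∧ ufPhi hF k ^ 4 = 1)
  rw [← map_pow, uf_one_iff, Ne, Ne, uf_zero_iff]

theorem skew_ratio (hF : Fintype.card F = 9) {b c : F} (hb : b ≠ 0) (hb' : b + b ^ 3 = 0)
    (hc : c ≠ 0) (hc' : c + c ^ 3 = 0) : ∃ k : F, k ≠ 0 ∧ k ^ 4 * b = c := by
  obtain ⟨b, rfl⟩ := (ufPhi hF).surjective b
  obtain ⟨c, rfl⟩ := (ufPhi hF).surjective c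
  rw [← map_pow, ← map_add, uf_zero_iff] at hb' hc'
  rw [Ne, uf_zero_iff] at hb hc
  obtain ⟨k, hk, e⟩ := uf_k7 b c hb hb' hc hc'
  refine ⟨ufPhi hF k, fun h => hk ((uf_zero_iff hF k).1 h), ?_⟩
  rw [← map_pow, ← map_mul, e]

theorem exists_sub_cube (hF : Fintype.card F = 9) {e : F} (he : e + e ^ 3 = 0) :
    ∃ c : F, c ^ 3 - c = e := by
  obtain ⟨e, rfl⟩ := (ufPhi hF).surjective e
  rw [← map_pow, ← map_add, uf_zero_iff] at he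
  obtain ⟨c, hc⟩ := uf_k8 e he
  refine ⟨ufPhi hF c, ?_⟩
  rw [← map_pow, ← map_sub, hc]

theorem exists_pow5 (hF : Fintype.card F = 9) {a : F} (ha : a ≠ 0) :
    ∃ k : F, k ≠ 0 ∧ k ^ 5 * a = 1 := by
  obtain ⟨a, rfl⟩ := (ufPhi hF).surjective a
  rw [Ne, uf_zero_iff] at ha
  obtain ⟨k, hk, e⟩ := uf_k9 a ha
  refine ⟨ufPhi hF k, fun h => hk ((uf_zero_iff hF k).1 h), ?_⟩
  rw [← map_pow, ← map_mul, e, map_one]

theorem pow5_eq_one (hF : Fintype.card F = 9) {k : F} (hk : k ^ 5 = 1) : k = 1 := by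
  obtain ⟨k, rfl⟩ := (ufPhi hF).surjective k
  rw [← map_pow, uf_one_iff] at hk
  rw [uf_k10 k hk, map_one]

theorem exists_comm_ne (hF : Fintype.card F = 9) {a : F} (ha : a ≠ 0) :
    ∃ c : F, a ^ 3 * c - c ^ 3 * a ≠ 0 := by
  obtain ⟨a, rfl⟩ := (ufPhi hF).surjective a
  rw [Ne, uf_zero_iff] at ha
  obtain ⟨c, hc⟩ := uf_k11 a ha
  refine ⟨ufPhi hF c, ?_⟩
  rw [← map_pow, ← map_pow, ← map_mul, ← map_mul, ← map_sub, Ne, uf_zero_iff]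
  exact hc

end Cfsg.Agent.Lib.Helper44.U33
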