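import Cfsg.Agent.Lib.Helper44.U33.UD2
import Cfsg.Agent.Lib.Helper44.U33.UF

set_option autoImplicit false

namespace Cfsg.Agent.Lib.Helper44.U33

open Cfsg Matrix

variable {F : Type*} [Field F] [Fintype F]

theorem α_surj (hF : Fintype.card F = 9) : Function.Surjective (αU hF) := by
  intro a
  obtain ⟨b, hb⟩ := exists_nt hF (Multiplicative.toAdd a)
  refine ⟨⟨tU hF (Multiplicative.toAdd a) b hb, (mem_QU_iff hF _).mpr ⟨_, b, hb, tU_coe hF _ _ hb⟩⟩, ?_⟩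
  rw [αU_apply]
  change Multiplicative.ofAdd ((tU hF (Multiplicative.toAdd a) b hb).1.1 1 2) = a
  rw [tU_coe]
  simp [Tm]

theorem α_ker (hF : Fintype.card F = 9) (x : QU F) : αU hF x = 1 ↔ (x : GU F) ∈ ZU F hF := by
  rw [αU_apply, mem_ZU]
  have h := (mem_QU _).mp x.2
  constructor
  · intro h1
    exact ⟨h.1, h.2.1, h.2.2, by simpa using h1⟩
  · intro h1
    rw [h1.2.2.2]
    rfl

theorem card_ZU (hF : Fintype.card F = 9) : Nat.card (ZU F hF) = 3 := by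
  refine Eq.trans ?_ (card_skew hF)
  refine Nat.card_congr (Equiv.ofBijective (fun g : ZU F hF => (⟨g.1.1.1 0 2, ?_⟩ : {b : F // b + b ^ 3 = 0})) ⟨?_, ?_⟩)
  · obtain ⟨b, hb, hg⟩ := (mem_ZU_iff hF _).mp g.2
    rw [hg]
    simpa [Tm] using hb
  · intro g g' hgg
    obtain ⟨b, hb, hg⟩ := (mem_ZU_iff hF _).mp g.2
    obtain ⟨b', hb', hg'⟩ := (mem_ZU_iff hF _).mp g'.2
    have h1 : g.1.1.1 0 2 = g'.1.1.1 0 2 := congrArg Subtype.val hgg
    rw [hg, hg'] at h1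
    have h2 : b = b' := by simpa [Tm] using h1
    apply Subtype.ext
    apply gu_ext
    rw [hg, hg', h2]
  · rintro ⟨b, hb⟩
    have hb' : b + b ^ 3 + 0 * 0 ^ 3 = 0 := by rw [zero_mul, add_zero]; exact hb
    refine ⟨⟨tU hF 0 b hb', (mem_ZU_iff hF _).mpr ⟨b, hb, tU_coe hF _ _ hb'⟩⟩, ?_⟩
    apply Subtype.ext
    change (tU hF 0 b hb').1.1 0 2 = b
    rw [tU_coe]
    simp [Tm]

theorem δ_ker (hF : Fintype.card F = 9) (x : BU F) : δU hF x = 1 ↔ (x : GU F) ∈ QU F := by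
  rw [mem_QU, Units.ext_iff, δU_coe, Units.val_one]
  have h := (mem_BU _).mp x.2
  exact ⟨fun h1 => ⟨h.1, h.2, h1⟩, fun h1 => h1.2.2⟩

theorem δ_surj (hF : Fintype.card F = 9) : Function.Surjective (δU hF) := by
  intro k
  have hmem : dU hF (k : F) k.ne_zero ∈ BU F := by
    rw [mem_BU, dU_coe]
    simp [Dm]
  refine ⟨⟨dU hF (k : F) k.ne_zero, hmem⟩, ?_⟩
  rw [Units.ext_iff, δU_coe]
  change (dU hF (k : F) k.ne_zero).1.1 0 0 = k
  rw [dU_coe]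
  simp [Dm]

end Cfsg.Agent.Lib.Helper44.U33
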