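import Cfsg.Agent.Lib.Helper44.U33.UD2
import Cfsg.Agent.Lib.Helper44.U33.UF

set_option autoImplicit false

namespace Cfsg.Agent.Lib.Helper44.U33

open Cfsg Matrix

variable {F : Type*} [Field F] [Fintype F]

theorem uc2_isConj {G : Type*} [Group G] {c a b : G} (h : c * a = b * c) : IsConj a b :=
  isConj_iff.mpr ⟨c, by rw [h, mul_inv_cancel_right]⟩

theorem conjZ (hF : Fintype.card F = 9) (ε : F) (h0 : ε ≠ 0) (h : ε + ε ^ 3 + 0 * 0 ^ 3 = 0)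
    (y : GU F) (hy : y ∈ ZU F hF) (hy1 : y ≠ 1) : IsConj (tU hF 0 ε h) y := by
  obtain ⟨b, hb, hyb⟩ := (mem_ZU_iff hF _).mp hy
  have hb0 : b ≠ 0 := by
    rintro rfl
    apply hy1
    apply gu_ext
    rw [hyb, Tm_zero, coe_one]
  have hε : ε + ε ^ 3 = 0 := by simpa using h
  obtain ⟨k, hk, hkb⟩ := skew_ratio hF h0 hε hb0 hb
  apply uc2_isConj (c := dU hF k hk)
  apply gu_ext
  rw [coe_mul, coe_mul, dU_coe, tU_coe, hyb, Dm_Tm hF hk, mul_zero, hkb]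

theorem conjU (hF : Fintype.card F = 9) (h : (1 : F) + 1 ^ 3 + 1 * 1 ^ 3 = 0)
    (y : GU F) (hy : y ∈ QU F) (hyZ : y ∉ ZU F hF) : IsConj (tU hF 1 1 h) y := by
  obtain ⟨a, b, hab, hyb⟩ := (mem_QU_iff hF _).mp hy
  have ha0 : a ≠ 0 := by
    rintro rfl
    apply hyZ
    exact (mem_ZU_iff hF _).mpr ⟨b, by simpa using hab, hyb⟩
  obtain ⟨k, hk, hka⟩ := exists_pow5 hF ha0
  -- the element `Tm 1 b'`
  have h3 : (3 : F) = 0 := three0 hF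
  have hk8 : k ^ 8 = 1 := pow8 hF hk
  have hb' : k ^ 4 * b + (k ^ 4 * b) ^ 3 + 1 * 1 ^ 3 = 0 := by
    have h1 : (k ^ 5 * a) * (k ^ 5 * a) ^ 3 = 1 := by rw [hka]; ring
    have h2 : (k ^ 5 * a) * (k ^ 5 * a) ^ 3 = k ^ 4 * (k ^ 8) ^ 2 * (a * a ^ 3) := by ring
    rw [h2, hk8] at h1
    have h4 : (k ^ 4 * b) ^ 3 = k ^ 4 * k ^ 8 * b ^ 3 := by ring
    rw [h4, hk8]
    have h5 : k ^ 4 * b + k ^ 4 * 1 * b ^ 3 + 1 * 1 ^ 3
        = k ^ 4 * (b + b ^ 3 + a * a ^ 3) + (1 - k ^ 4 * 1 ^ 2 * (a * a ^ 3)) := by ring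
    rw [h5, hab, h1]
    ring
  have he : (k ^ 4 * b - 1) + (k ^ 4 * b - 1) ^ 3 = 0 := by
    have h1 : (k ^ 4 * b - 1) ^ 3 = (k ^ 4 * b) ^ 3 + (-1) ^ 3 := by
      rw [sub_eq_add_neg, add_cube hF]
    rw [h1]
    have h2 : k ^ 4 * b - 1 + ((k ^ 4 * b) ^ 3 + (-1) ^ 3)
        = (k ^ 4 * b + (k ^ 4 * b) ^ 3 + 1 * 1 ^ 3) - 3 := by ring
    rw [h2, hb', h3]
    ring
  obtain ⟨c, hc⟩ := exists_sub_cube hF he
  obtain ⟨d, hd⟩ := exists_nt hF c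
  have c1 : IsConj y (tU hF 1 (k ^ 4 * b) hb') := by
    apply uc2_isConj (c := dU hF k hk)
    apply gu_ext
    rw [coe_mul, coe_mul, dU_coe, tU_coe, hyb, Dm_Tm hF hk, hka]
  have c2 : IsConj (tU hF 1 (k ^ 4 * b) hb') (tU hF 1 1 h) := by
    apply uc2_isConj (c := tU hF c d hd)
    apply gu_ext
    rw [coe_mul, coe_mul, tU_coe, tU_coe, tU_coe, Tm_mul hF, Tm_mul hF]
    congr 1
    · ring
    · have : k ^ 4 * b = c ^ 3 - c + 1 := by rw [hc]; ring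
      rw [this]
      ring
  exact (c1.trans c2).symm

end Cfsg.Agent.Lib.Helper44.U33
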