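import Cfsg.Agent.Lib.Helper44.U33.UD2

set_option autoImplicit false

namespace Cfsg.Agent.Lib.Helper44.U33

open Cfsg Matrix

variable {F : Type*} [Field F] [Fintype F]

theorem fixU (hF : Fintype.card F = 9) (y : GU F) (hy : y ∈ QU F) (hy1 : y ≠ 1) (x : GU F)
    (hx : x⁻¹ * y * x ∈ BU F) : x ∈ BU F := by
  obtain ⟨a, b, hab, hyb⟩ := (mem_QU_iff hF _).mp hy
  obtain ⟨hw1, hw2⟩ := (mem_BU _).mp hx
  have hmul : x * (x⁻¹ * y * x) = y * x := by group
  have hmat : x.1.1 * (x⁻¹ * y * x).1.1 = Tm a b * x.1.1 := by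
    rw [← coe_mul, hmul, coe_mul, hyb]
  have e0 := congrFun (congrFun hmat 0) 0
  have e1 := congrFun (congrFun hmat 1) 0
  have e2 := congrFun (congrFun hmat 2) 0
  simp only [Matrix.mul_apply, Fin.sum_univ_three, hw1, hw2, mul_zero, add_zero] at e0 e1 e2
  generalize (x⁻¹ * y * x).1.1 0 0 = κ at e0 e1 e2
  simp [Tm] at e0 e1 e2
  have hiso := ent x 0 0
  have hJ : JU F 0 0 = 0 := by simp [JU]
  rw [hJ] at hiso
  have hv2 : x.1.1 2 0 = 0 := by
    by_contra hv2
    -- κ = 1
    have hκ : κ = 1 := by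
      have : x.1.1 2 0 * (κ - 1) = 0 := by rw [mul_sub, e2]; ring
      rcases mul_eq_zero.mp this with h | h
      · exact absurd h hv2
      · exact sub_eq_zero.mp h
    rw [hκ, mul_one] at e0 e1
    have ha : a = 0 := by
      have : a * x.1.1 2 0 = 0 := by
        have h := e1
        linear_combination -h
      rcases mul_eq_zero.mp this with h | h
      · exact h
      · exact absurd h hv2
    have hb : b = 0 := by
      have : b * x.1.1 2 0 = 0 := by
        have h := e0
        rw [ha] at h
        linear_combination -h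
      rcases mul_eq_zero.mp this with h | h
      · exact h
      · exact absurd h hv2
    apply hy1
    apply gu_ext
    rw [hyb, ha, hb, Tm_zero, coe_one]
  have hv1 : x.1.1 1 0 = 0 := by
    rw [hv2] at hiso
    have : (x.1.1 1 0) ^ 4 = 0 := by
      have h := hiso
      linear_combination h
    exact pow_eq_zero_iff (by norm_num) |>.mp this
  exact (mem_BU _).mpr ⟨hv1, hv2⟩

end Cfsg.Agent.Lib.Helper44.U33
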