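import Cfsg.Agent.Lib.Helper44.U33.UC3
import Cfsg.Agent.Lib.Helper44.U33.UF

set_option autoImplicit false

namespace Cfsg.Agent.Lib.Helper44.U33

open Cfsg Matrix

variable {F : Type*} [Field F] [Fintype F]

theorem uc4_comm_iff (hF : Fintype.card F = 9) (ε : F) (h0 : ε ≠ 0) (a b k : F) (hk : k ≠ 0) :
    (Tm a b * Dm k) * Tm 0 ε = Tm 0 ε * (Tm a b * Dm k) ↔ k ^ 4 = 1 := by
  rw [mul_assoc, Dm_Tm hF hk, ← mul_assoc, ← mul_assoc, Tm_mul hF, Tm_mul hF]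
  constructor
  · intro h
    obtain ⟨_, h2, _⟩ := TD_inj hk h
    have h3 : (k ^ 4 - 1) * ε = 0 := by linear_combination h2
    rcases mul_eq_zero.mp h3 with h4 | h4
    · exact sub_eq_zero.mp h4
    · exact absurd h4 h0
  · intro h
    rw [h]
    congr 2
    · ring
    · ring

theorem card_cent_z (hF : Fintype.card F = 9) (ε : F) (h0 : ε ≠ 0) (h : ε + ε ^ 3 + 0 * 0 ^ 3 = 0) :
    Nat.card {z : GU F // z * tU hF 0 ε h = tU hF 0 ε h * z} = 108 := by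
  have hcard : Nat.card ({p : F × F // p.2 + p.2 ^ 3 + p.1 * p.1 ^ 3 = 0} × {k : F // k ≠ 0 ∧ k ^ 4 = 1})
      = 108 := by
    rw [Nat.card_prod, card_S hF, card_mu4 hF]
  refine Eq.trans (Nat.card_congr (Equiv.ofBijective
    (fun q : {p : F × F // p.2 + p.2 ^ 3 + p.1 * p.1 ^ 3 = 0} × {k : F // k ≠ 0 ∧ k ^ 4 = 1} =>
      (⟨tU hF q.1.1.1 q.1.1.2 q.1.2 * dU hF q.2.1 q.2.2.1, ?_⟩ :
        {z : GU F // z * tU hF 0 ε h = tU hF 0 ε h * z})) ⟨?_, ?_⟩)).symm hcard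
  · apply gu_ext
    rw [coe_mul, coe_mul, coe_mul, tU_coe, tU_coe, dU_coe]
    exact (uc4_comm_iff hF ε h0 _ _ _ q.2.2.1).mpr q.2.2.2
  · rintro ⟨⟨⟨a, b⟩, hab⟩, ⟨k, hk⟩⟩ ⟨⟨⟨a', b'⟩, hab'⟩, ⟨k', hk'⟩⟩ heq
    have h1 : (tU hF a b hab * dU hF k hk.1).1.1 = (tU hF a' b' hab' * dU hF k' hk'.1).1.1 :=
      congrArg (fun z : {z : GU F // z * tU hF 0 ε h = tU hF 0 ε h * z} => z.1.1.1) heq
    rw [coe_mul, coe_mul, tU_coe, tU_coe, dU_coe, dU_coe] at h1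
    obtain ⟨e1, e2, e3⟩ := TD_inj hk.1 h1
    subst e1 e2 e3
    rfl
  · rintro ⟨z, hz⟩
    have ht : tU hF 0 ε h ∈ QU F := (mem_QU_iff hF _).mpr ⟨0, ε, h, tU_coe hF _ _ h⟩
    have ht1 : tU hF 0 ε h ≠ 1 := by
      intro h1
      have h2 : (tU hF 0 ε h).1.1 = (1 : GU F).1.1 := by rw [h1]
      rw [tU_coe, coe_one, ← Tm_zero] at h2
      exact h0 (Tm_inj h2).2
    have hzB : z ∈ BU F := by
      apply fixU hF _ ht ht1
      have : z⁻¹ * tU hF 0 ε h * z = tU hF 0 ε h := by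
        rw [mul_assoc, ← hz]; group
      rw [this]
      have := (mem_QU _).mp ht
      exact (mem_BU _).mpr ⟨this.1, this.2.1⟩
    obtain ⟨a, b, k, hk, hab, hzm⟩ := (mem_BU_iff hF _).mp hzB
    have hk4 : k ^ 4 = 1 := by
      apply (uc4_comm_iff hF ε h0 a b k hk).mp
      rw [← hzm, ← tU_coe hF 0 ε h, ← coe_mul, ← coe_mul, hz]
    refine ⟨⟨⟨⟨a, b⟩, hab⟩, ⟨k, hk, hk4⟩⟩, ?_⟩
    apply Subtype.ext
    apply gu_ext
    change (tU hF a b hab * dU hF k hk).1.1 = z.1.1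
    rw [coe_mul, tU_coe, dU_coe, hzm]

end Cfsg.Agent.Lib.Helper44.U33
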