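import Cfsg.Agent.Lib.Helper44.U33.UC3
import Cfsg.Agent.Lib.Helper44.U33.UF

set_option autoImplicit false

namespace Cfsg.Agent.Lib.Helper44.U33

open Cfsg Matrix

variable {F : Type*} [Field F] [Fintype F]

theorem uc5_comm (hF : Fintype.card F = 9) (h : (1 : F) + 1 ^ 3 + 1 * 1 ^ 3 = 0) (c d : F)
    (hcd : d + d ^ 3 + c * c ^ 3 = 0) (hc : c ^ 3 = c) :
    tU hF c d hcd * tU hF 1 1 h = tU hF 1 1 h * tU hF c d hcd := by
  apply gu_ext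
  rw [coe_mul, coe_mul, tU_coe, tU_coe, Tm_mul hF, Tm_mul hF, hc]
  congr 1 <;> ring

theorem uc5_form (hF : Fintype.card F = 9) (h : (1 : F) + 1 ^ 3 + 1 * 1 ^ 3 = 0) (z : GU F)
    (hz : z * tU hF 1 1 h = tU hF 1 1 h * z) :
    ∃ c d : F, d + d ^ 3 + c * c ^ 3 = 0 ∧ c ^ 3 = c ∧ z.1.1 = Tm c d := by
  have huQ : tU hF 1 1 h ∈ QU F := (mem_QU_iff hF _).2 ⟨1, 1, h, tU_coe hF 1 1 h⟩
  have hu1 : tU hF 1 1 h ≠ 1 := by
    intro e
    have e' := congrArg (fun g : GU F => g.1.1) e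
    simp only [tU_coe, coe_one] at e'
    rw [← Tm_zero] at e'
    exact one_ne_zero (Tm_inj e').1
  have hQB : tU hF 1 1 h ∈ BU F := ⟨huQ.1, huQ.2.1⟩
  have hzB : z ∈ BU F := by
    apply fixU hF (tU hF 1 1 h) huQ hu1 z
    have : z⁻¹ * tU hF 1 1 h * z = tU hF 1 1 h := by
      rw [mul_assoc, ← hz, inv_mul_cancel_left]
    rw [this]; exact hQB
  obtain ⟨c, d, k, hk, hcd, e⟩ := (mem_BU_iff hF z).1 hzB
  have e' := congrArg (fun g : GU F => g.1.1) hz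
  simp only [coe_mul, tU_coe] at e'
  rw [e, mul_assoc, Dm_Tm hF hk, ← mul_assoc, ← mul_assoc, Tm_mul hF, Tm_mul hF] at e'
  obtain ⟨h1, h2, -⟩ := TD_inj hk e'
  have hk5 : k ^ 5 = 1 := by linear_combination h1
  have hk1 : k = 1 := pow5_eq_one hF hk5
  subst hk1
  refine ⟨c, d, hcd, ?_, ?_⟩
  · linear_combination -h2
  · rw [e, Dm_one, mul_one]

theorem card_cent_u (hF : Fintype.card F = 9) (h : (1 : F) + 1 ^ 3 + 1 * 1 ^ 3 = 0) :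
    Nat.card {z : GU F // z * tU hF 1 1 h = tU hF 1 1 h * z} = 9 := by
  rw [← card_S3 hF]
  symm
  apply Nat.card_congr
  refine Equiv.ofBijective
    (fun p : {p : F × F // p.2 + p.2 ^ 3 + p.1 * p.1 ^ 3 = 0 ∧ p.1 ^ 3 = p.1} =>
      (⟨tU hF p.1.1 p.1.2 p.2.1, uc5_comm hF h p.1.1 p.1.2 p.2.1 p.2.2⟩ :
        {z : GU F // z * tU hF 1 1 h = tU hF 1 1 h * z})) ⟨?_, ?_⟩
  · intro p q hpq
    have e := congrArg (fun z : {z : GU F // z * tU hF 1 1 h = tU hF 1 1 h * z} => z.1.1.1) hpq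
    simp only [tU_coe] at e
    obtain ⟨e1, e2⟩ := Tm_inj e
    exact Subtype.ext (Prod.ext e1 e2)
  · rintro ⟨z, hz⟩
    obtain ⟨c, d, hcd, hc, e⟩ := uc5_form hF h z hz
    refine ⟨⟨(c, d), hcd, hc⟩, ?_⟩
    apply Subtype.ext
    apply gu_ext
    show (tU hF c d hcd).1.1 = z.1.1
    rw [tU_coe, e]

end Cfsg.Agent.Lib.Helper44.U33
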