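import Cfsg.Agent.Lib.Helper44.U33.UD2
import Cfsg.Agent.Lib.Helper44.U33.UF

set_option autoImplicit false

namespace Cfsg.Agent.Lib.Helper44.U33

open Cfsg Matrix

variable {F : Type*} [Field F] [Fintype F]

theorem cenU (hF : Fintype.card F = 9) : ∀ z ∈ ZU F hF, ∀ x ∈ QU F, z * x = x * z := by
  intro z hz x hx
  obtain ⟨b, -, e⟩ := (mem_ZU_iff hF z).1 hz
  obtain ⟨c, d, -, e'⟩ := (mem_QU_iff hF x).1 hx
  apply gu_ext
  rw [coe_mul, coe_mul, e, e', Tm_mul hF, Tm_mul hF]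
  congr 1 <;> ring

theorem commU (hF : Fintype.card F = 9) : ∀ y ∈ QU F, y ∉ ZU F hF →
    ∃ x ∈ QU F, x * y * x⁻¹ * y⁻¹ ∈ ZU F hF ∧ x * y * x⁻¹ * y⁻¹ ≠ 1 := by
  intro y hy hyZ
  obtain ⟨a, b, hab, e⟩ := (mem_QU_iff hF y).1 hy
  have ha : a ≠ 0 := by
    rintro rfl
    exact hyZ ((mem_ZU_iff hF y).2 ⟨b, by simpa using hab, e⟩)
  obtain ⟨c, hc⟩ := exists_comm_ne hF ha
  obtain ⟨d, hd⟩ := exists_nt hF c
  have hx : tU hF c d hd ∈ QU F := (mem_QU_iff hF _).2 ⟨c, d, hd, tU_coe hF c d hd⟩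
  refine ⟨tU hF c d hd, hx, ?_⟩
  set x := tU hF c d hd with hxdef
  set w := x * y * x⁻¹ * y⁻¹ with hw
  have hwQ : w ∈ QU F :=
    (QU F).mul_mem ((QU F).mul_mem ((QU F).mul_mem hx hy) ((QU F).inv_mem hx)) ((QU F).inv_mem hy)
  obtain ⟨a', b', hab', ew⟩ := (mem_QU_iff hF w).1 hwQ
  have hrel : w * (y * x) = x * y := by rw [hw]; group
  have hrel' : Tm a' b' * (Tm a b * Tm c d) = Tm c d * Tm a b := by
    have := congrArg (fun g : GU F => g.1.1) hrel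
    simp only [coe_mul] at this
    rw [ew, e, hxdef, tU_coe] at this
    exact this
  rw [Tm_mul hF, Tm_mul hF, Tm_mul hF] at hrel'
  obtain ⟨h1, h2⟩ := Tm_inj hrel'
  have ha' : a' = 0 := by linear_combination h1
  subst ha'
  have hb' : b' = a ^ 3 * c - c ^ 3 * a := by linear_combination h2
  refine ⟨(mem_ZU_iff hF w).2 ⟨b', by simpa using hab', ew⟩, ?_⟩
  intro h1w
  rw [h1w, coe_one, ← Tm_zero] at ew
  have := (Tm_inj ew).2
  exact hc (by rw [← hb', ← this])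

end Cfsg.Agent.Lib.Helper44.U33
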