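import Cfsg.Agent.Lib.Helper44.U33.Defs
import Cfsg.Agent.Lib.Helper50.SUCenter
import Cfsg.Agent.Lib.Helper17.UnitSimple

set_option autoImplicit false

namespace Cfsg.Agent.Lib.Helper44.U33

open Cfsg
open scoped Matrix

variable {F : Type*} [Field F] [Fintype F]

omit [Fintype F] in
theorem uiso_JU_mul : JU F * JU F = 1 := by
  ext i j
  fin_cases i <;> fin_cases j <;> simp [JU, Matrix.mul_apply, Fin.sum_univ_three]

theorem uiso_JU_herm (hK : Fintype.card F = 3 ^ 2) :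
    ((JU F).map (Cfsg.Agent.Lib.Helper17.frobQ hK))ᵀ = JU F := by
  ext i j
  fin_cases i <;> fin_cases j <;> simp [JU]

theorem gu_iso (hF : Fintype.card F = 9) : Nonempty (GU F ≃* Cfsg.SU 3 F 3) := by
  classical
  have hK : Fintype.card F = 3 ^ 2 := by rw [hF]; norm_num
  obtain ⟨Θ, Φ, hΦ, hΘ⟩ := Cfsg.Agent.Lib.Helper44.exists_transport hK (JU F) (JU F)
    (uiso_JU_herm hK) uiso_JU_mul (k := 3) (by simp)
  refine ⟨MulEquiv.ofBijective Θ ⟨?_, ?_⟩⟩
  · intro A B hAB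
    apply Cfsg.Agent.Lib.Helper44.UJ_ext
    rw [Matrix.ext_iff_mulVec]
    intro v
    obtain ⟨x, rfl⟩ := Φ.surjective v
    have h1 := hΘ A x
    have h2 := hΘ B x
    rw [hAB, h2] at h1
    exact (Φ.symm.injective h1).symm
  · intro A
    let L : (Fin 3 → F) →ₗ[F] (Fin 3 → F) :=
      Φ.toLinearMap ∘ₗ (Matrix.toLin' A.1.1) ∘ₗ Φ.symm.toLinearMap
    have hL : ∀ v, (LinearMap.toMatrix' L) *ᵥ v = Φ (A.1.1 *ᵥ Φ.symm v) := by
      intro v
      rw [← Matrix.toLin'_apply, Matrix.toLin'_toMatrix']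
      simp [L]
    have hdet : (LinearMap.toMatrix' L).det = 1 := by
      rw [← LinearMap.det_toLin', Matrix.toLin'_toMatrix']
      have : L = (Φ : (Fin 3 → F) →ₗ[F] (Fin 3 → F)) ∘ₗ (Matrix.toLin' A.1.1) ∘ₗ
          (Φ.symm : (Fin 3 → F) →ₗ[F] (Fin 3 → F)) := rfl
      rw [this, LinearMap.det_conj, LinearMap.det_toLin']
      exact A.1.2
    refine ⟨⟨⟨LinearMap.toMatrix' L, hdet⟩, ?_⟩, ?_⟩
    · intro u v
      change Cfsg.Agent.Lib.Helper44.fJ 3 (JU F) ((LinearMap.toMatrix' L) *ᵥ u)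
        ((LinearMap.toMatrix' L) *ᵥ v) = Cfsg.Agent.Lib.Helper44.fJ 3 (JU F) u v
      rw [hL, hL, hΦ]
      have h1 := A.2 (Φ.symm u) (Φ.symm v)
      have h2 := hΦ (Φ.symm u) (Φ.symm v)
      rw [Φ.apply_symm_apply, Φ.apply_symm_apply] at h2
      rw [h2]
      exact h1
    · apply Subtype.ext
      apply Subtype.ext
      rw [Matrix.ext_iff_mulVec]
      intro x
      rw [hΘ]
      change Φ.symm ((LinearMap.toMatrix' L) *ᵥ Φ x) = _
      rw [hL, Φ.symm_apply_apply, Φ.symm_apply_apply]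

theorem uiso_center (hF : Fintype.card F = 9) : Subgroup.center ↥(Cfsg.SU 3 F 3) = ⊥ := by
  have hK : Fintype.card F = 3 ^ 2 := by rw [hF]; norm_num
  apply Subgroup.eq_bot_of_card_eq
  rw [Cfsg.Agent.Lib.Helper50.Herm.card_center_SU hK 3 (by norm_num)]
  rfl

theorem psu_iso (hF : Fintype.card F = 9) : Nonempty (Cfsg.PSU 3 F 3 ≃* GU F) := by
  obtain ⟨e⟩ := gu_iso hF
  exact ⟨((QuotientGroup.quotientMulEquivOfEq (uiso_center hF)).trans
    QuotientGroup.quotientBot).trans e.symm⟩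

theorem card_GU (hF : Fintype.card F = 9) : Nat.card (GU F) = 6048 := by
  have hK : Fintype.card F = 3 ^ 2 := by rw [hF]; norm_num
  obtain ⟨e⟩ := gu_iso hF
  rw [Nat.card_congr e.toEquiv]
  have h1 := Cfsg.Agent.Lib.Helper50.Herm.card_SU hK 3 (by norm_num)
  rw [Cfsg.Agent.Lib.Helper50.Herm.card_GU hK 3] at h1
  have h2 : (3 : ℕ) ^ (3 * (3 - 1) / 2) *
      ∏ i ∈ Finset.range 3, (if Even i then 3 ^ (i + 1) + 1 else 3 ^ (i + 1) - 1) = 4 * 6048 := by
    decide
  rw [h2] at h1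
  omega

theorem perf_GU (hF : Fintype.card F = 9) : commutator (GU F) = ⊤ := by
  have hK : Fintype.card F = 3 ^ 2 := by rw [hF]; norm_num
  obtain ⟨e⟩ := gu_iso hF
  have h := Cfsg.Agent.Lib.Helper17.su_commutator_eq_top hK (n := 3) le_rfl (by norm_num)
  have h2 : (commutator (GU F)).map e.toMonoidHom = commutator ↥(Cfsg.SU 3 F 3) := by
    rw [commutator_def, commutator_def, Subgroup.map_commutator]
    have : (⊤ : Subgroup (GU F)).map e.toMonoidHom = ⊤ := by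
      rw [← MonoidHom.range_eq_map, MonoidHom.range_eq_top]
      exact e.surjective
    rw [this]
  rw [h] at h2
  rw [eq_top_iff]
  intro x _
  have hx : e.toMonoidHom x ∈ (commutator (GU F)).map e.toMonoidHom := by
    rw [h2]; exact Subgroup.mem_top _
  obtain ⟨y, hy, hyx⟩ := hx
  have : y = x := e.injective hyx
  rwa [← this]

end Cfsg.Agent.Lib.Helper44.U33
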