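import Cfsg.Agent.Lib.Helper44.U33.UC1
import Cfsg.Agent.Lib.Helper44.U33.UC2
import Cfsg.Agent.Lib.Helper44.U33.UC4
import Cfsg.Agent.Lib.Helper44.U33.UC5
import Cfsg.Agent.Lib.Helper44.U33.UC6
import Cfsg.Agent.Lib.Helper44.U33.UISO

set_option autoImplicit false

namespace Cfsg.Agent.Lib.Helper44.U33

open Cfsg Matrix

variable {F : Type*} [Field F] [Fintype F]

theorem conc (hF : Fintype.card F = 9) : Nonempty (CfgU F (GU F)) := by
  obtain ⟨ε, h0, hε⟩ := exists_skew hF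
  have h : ε + ε ^ 3 + 0 * 0 ^ 3 = 0 := by rw [hε]; simp
  have h1 : (1 : F) + 1 ^ 3 + 1 * 1 ^ 3 = 0 := by
    have := three0 hF
    rw [← this]; norm_num
  have hz1 : tU hF 0 ε h ≠ 1 := by
    intro e
    have e2 : Tm 0 ε = Tm (0 : F) 0 := by
      rw [Tm_zero, ← tU_coe hF 0 ε h, e]; rfl
    exact h0 (Tm_inj e2).2
  exact ⟨{
    Q := QU F
    Z := ZU F hF
    B := BU F
    α := αU hF
    δ := δU hF
    z0 := tU hF 0 ε h
    u0 := tU hF 1 1 h1
    hF := hF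
    hZQ := fun g hg => ⟨hg.1, hg.2.1, hg.2.2.1⟩
    hQB := fun g hg => ⟨hg.1, hg.2.1⟩
    hα := α_surj hF
    hαk := α_ker hF
    hZ := card_ZU hF
    hcen := cenU hF
    hcomm := commU hF
    hz0 := ⟨(mem_ZU_iff hF _).2 ⟨ε, hε, rfl⟩, hz1⟩
    hu0 := ⟨(mem_QU_iff hF _).2 ⟨1, 1, h1, rfl⟩, fun hm => by
      obtain ⟨b, _, hb⟩ := (mem_ZU_iff hF _).1 hm
      rw [tU_coe] at hb
      exact one_ne_zero (Tm_inj hb).1⟩
    hconjZ := conjZ hF ε h0 h
    hconjU := conjU hF h1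
    hcard := card_GU hF
    hcz := card_cent_z hF ε h0 h
    hcu := card_cent_u hF h1
    hδ := δ_ker hF
    hδs := δ_surj hF
    hfix := fixU hF
    hperf := perf_GU hF }⟩

end Cfsg.Agent.Lib.Helper44.U33
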