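import Mathlib

set_option autoImplicit false

namespace Cfsg.Agent.Lib.Helper44.U33

/-- the combinatorial core: from the Gram sums and the classification of the principal series
characters, there are characters of types `(2,1,3)` (degree 28), `(1,1,2)` (degree 21) and
`(0,0,b)`, `b ≠ 0` (degree `6 b`). -/
theorem core_aux {ι : Type*} [Fintype ι] [DecidableEq ι] (l a b : ι → ℤ) (i0 : ι)
    (ha0 : ∀ i, 0 ≤ a i) (hb0 : ∀ i, 0 ≤ b i)
    (hll : ∑ i, l i * l i = 16) (hla : ∑ i, l i * a i = 8) (haa : ∑ i, a i * a i = 9)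
    (hlb : ∑ i, l i * b i = 24) (hab : ∑ i, a i * b i = 24) (hbb : ∑ i, b i * b i = 76)
    (hnc : ∀ i, l i ≠ 0 → (l i = 1 ∧ a i = 0 ∧ b i = 0) ∨ (l i = 1 ∧ a i = 0 ∧ b i = 1) ∨
      (l i = 1 ∧ a i = 1 ∧ b i = 2) ∨ (l i = 1 ∧ a i = 1 ∧ b i = 3) ∨
      (l i = 2 ∧ a i = 1 ∧ b i = 3))
    (h0 : l i0 = 1 ∧ a i0 = 0 ∧ b i0 = 0)
    (h0' : ∀ i, l i = 1 ∧ a i = 0 ∧ b i = 0 → i = i0)
    (hdvd : ∀ i, (l i + 8 * a i + 6 * b i) ∣ 6048) :
    (∃ i, l i = 2 ∧ a i = 1 ∧ b i = 3) ∧ (∃ i, l i = 1 ∧ a i = 1 ∧ b i = 2) ∧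
      (∃ i, l i = 0 ∧ a i = 0 ∧ b i ≠ 0) := by
  obtain ⟨ind, hind⟩ : ∃ ind : ι → ℤ, ind = fun i => if i = i0 then (1 : ℤ) else 0 := ⟨_, rfl⟩
  have hsind : ∑ i, ind i = 1 := by
    rw [hind]
    simp
  have key : ∀ i, (l i = 0 ∧ ind i = 0) ∨ (l i = 1 ∧ a i = 0 ∧ b i = 0 ∧ ind i = 1) ∨
      (l i = 1 ∧ a i = 0 ∧ b i = 1 ∧ ind i = 0) ∨ (l i = 1 ∧ a i = 1 ∧ b i = 2 ∧ ind i = 0) ∨
      (l i = 1 ∧ a i = 1 ∧ b i = 3 ∧ ind i = 0) ∨ (l i = 2 ∧ a i = 1 ∧ b i = 3 ∧ ind i = 0) := by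
    intro i
    have hne : ∀ {x y z : ℤ}, l i = x → a i = y → b i = z → ¬ (x = 1 ∧ y = 0 ∧ z = 0) →
        ind i = 0 := by
      intro x y z h1 h2 h3 hn
      rw [hind]
      simp only
      rw [if_neg]
      rintro rfl
      exact hn ⟨by rw [← h1]; exact h0.1, by rw [← h2]; exact h0.2.1, by rw [← h3]; exact h0.2.2⟩
    by_cases hl : l i = 0
    · left
      exact ⟨hl, hne hl rfl rfl (by norm_num)⟩
    · rcases hnc i hl with h | h | h | h | h
      · right; left
        refine ⟨h.1, h.2.1, h.2.2, ?_⟩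
        rw [hind]
        simp only
        rw [if_pos (h0' i h)]
      · right; right; left
        exact ⟨h.1, h.2.1, h.2.2, hne h.1 h.2.1 h.2.2 (by norm_num)⟩
      · right; right; right; left
        exact ⟨h.1, h.2.1, h.2.2, hne h.1 h.2.1 h.2.2 (by norm_num)⟩
      · right; right; right; right; left
        exact ⟨h.1, h.2.1, h.2.2, hne h.1 h.2.1 h.2.2 (by norm_num)⟩
      · right; right; right; right; right
        exact ⟨h.1, h.2.1, h.2.2, hne h.1 h.2.1 h.2.2 (by norm_num)⟩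
  -- the three auxiliary sums
  have hst : ∑ i, (l i * l i - l i * a i - ind i - (l i * b i - 3 * (l i * a i))) = 7 := by
    simp only [Finset.sum_sub_distrib, ← Finset.mul_sum, hll, hla, hlb, hsind]
    norm_num
  have hs13 : ∑ i, (b i * b i - 6 * (a i * b i) + 9 * (a i * a i)) = 13 := by
    simp only [Finset.sum_sub_distrib, Finset.sum_add_distrib, ← Finset.mul_sum, haa, hab, hbb]
    norm_num
  have hs14 : ∑ i, (2 * (l i * l i - l i * a i - ind i - (l i * b i - 3 * (l i * a i))) +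
      (l i * b i - 3 * (l i * a i))) = 14 := by
    simp only [Finset.sum_sub_distrib, Finset.sum_add_distrib, ← Finset.mul_sum, hll, hla, hlb,
      hsind]
    norm_num
  have hs9 : ∑ i, ((b i * b i - 7 * (a i * b i) + 12 * (a i * a i)) -
      (l i * b i - 3 * (l i * a i)) -
      (l i * l i - l i * a i - ind i - (l i * b i - 3 * (l i * a i)))) = 9 := by
    simp only [Finset.sum_sub_distrib, Finset.sum_add_distrib, ← Finset.mul_sum, hll, hla, hlb,
      haa, hab, hbb, hsind]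
    norm_num
  refine ⟨?_, ?_, ?_⟩
  · by_contra hcon
    have hle : ∑ i, (2 * (l i * l i - l i * a i - ind i - (l i * b i - 3 * (l i * a i))) +
        (l i * b i - 3 * (l i * a i))) ≤ ∑ i, (b i * b i - 6 * (a i * b i) + 9 * (a i * a i)) := by
      apply Finset.sum_le_sum
      intro i _
      rcases key i with ⟨h1, h4⟩ | ⟨h1, h2, h3, h4⟩ | ⟨h1, h2, h3, h4⟩ | ⟨h1, h2, h3, h4⟩ |
        ⟨h1, h2, h3, h4⟩ | ⟨h1, h2, h3, h4⟩
      · rw [h1, h4]
        nlinarith [sq_nonneg (b i - 3 * a i)]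
      · rw [h1, h2, h3, h4]; norm_num
      · rw [h1, h2, h3, h4]; norm_num
      · rw [h1, h2, h3, h4]; norm_num
      · rw [h1, h2, h3, h4]; norm_num
      · exact absurd ⟨i, h1, h2, h3⟩ hcon
    rw [hs13, hs14] at hle
    norm_num at hle
  · by_contra hcon
    have hd : (2 : ℤ) ∣ ∑ i, (l i * l i - l i * a i - ind i - (l i * b i - 3 * (l i * a i))) := by
      apply Finset.dvd_sum
      intro i _
      rcases key i with ⟨h1, h4⟩ | ⟨h1, h2, h3, h4⟩ | ⟨h1, h2, h3, h4⟩ | ⟨h1, h2, h3, h4⟩ |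
        ⟨h1, h2, h3, h4⟩ | ⟨h1, h2, h3, h4⟩
      · rw [h1, h4]; norm_num
      · rw [h1, h2, h3, h4]; norm_num
      · rw [h1, h2, h3, h4]; norm_num
      · exact absurd ⟨i, h1, h2, h3⟩ hcon
      · rw [h1, h2, h3, h4]; norm_num
      · rw [h1, h2, h3, h4]; norm_num
    rw [hst] at hd
    norm_num at hd
  · by_contra hcon
    have hd : (2 : ℤ) ∣ ∑ i, ((b i * b i - 7 * (a i * b i) + 12 * (a i * a i)) -
        (l i * b i - 3 * (l i * a i)) -
        (l i * l i - l i * a i - ind i - (l i * b i - 3 * (l i * a i)))) := by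
      apply Finset.dvd_sum
      intro i _
      rcases key i with ⟨h1, h4⟩ | ⟨h1, h2, h3, h4⟩ | ⟨h1, h2, h3, h4⟩ | ⟨h1, h2, h3, h4⟩ |
        ⟨h1, h2, h3, h4⟩ | ⟨h1, h2, h3, h4⟩
      · have hA : a i * a i ≤ 9 := by
          rw [← haa]
          exact Finset.single_le_sum (f := fun i => a i * a i) (fun j _ => mul_self_nonneg (a j))
            (Finset.mem_univ i)
        have hB : b i * b i ≤ 76 := by
          rw [← hbb]
          exact Finset.single_le_sum (f := fun i => b i * b i) (fun j _ => mul_self_nonneg (b j))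
            (Finset.mem_univ i)
        have hA0 := ha0 i
        have hB0 := hb0 i
        have hA3 : a i ≤ 3 := by nlinarith
        have hB8 : b i ≤ 8 := by nlinarith
        have hdv := hdvd i
        have hc : ¬ (a i = 0 ∧ b i ≠ 0) := fun h => hcon ⟨i, h1, h.1, h.2⟩
        rw [h1, h4]
        rw [h1] at hdv
        generalize a i = x at *
        generalize b i = y at *
        interval_cases x <;> interval_cases y <;> first | (norm_num; done) | (exfalso; revert hdv; norm_num; done) | (exfalso; apply hc; norm_num; done)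
      · rw [h1, h2, h3, h4]; norm_num
      · rw [h1, h2, h3, h4]; norm_num
      · rw [h1, h2, h3, h4]; norm_num
      · rw [h1, h2, h3, h4]; norm_num
      · rw [h1, h2, h3, h4]; norm_num
    rw [hs9] at hd
    norm_num at hd

end Cfsg.Agent.Lib.Helper44.U33
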