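import Cfsg.Agent.Lib.Helper44.U33.Defs

set_option autoImplicit false
set_option linter.unusedSectionVars false

namespace Cfsg.Agent.Lib.Helper44.U33

open Cfsg Matrix Cfsg.Agent.Lib.Helper17

variable {F : Type*} [Field F] [Fintype F]

theorem hF2 (hF : Fintype.card F = 9) : Fintype.card F = 3 ^ 2 := by rw [hF]; norm_num

theorem pow9 (hF : Fintype.card F = 9) (x : F) : x ^ 9 = x := by
  rw [← hF]; exact FiniteField.pow_card x

theorem three0 (hF : Fintype.card F = 9) : (3 : F) = 0 := by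
  obtain ⟨p, hp⟩ := CharP.exists F
  obtain ⟨n, hpr, hn⟩ := FiniteField.card F p
  rw [hF] at hn
  have h3 : p = 3 := by
    have h1 : p ∣ 3 ^ 2 := by
      have : (9 : ℕ) = 3 ^ 2 := by norm_num
      rw [← this, hn]
      exact dvd_pow_self p n.ne_zero
    exact (Nat.prime_dvd_prime_iff_eq hpr Nat.prime_three).1 (hpr.dvd_of_dvd_pow h1)
  subst h3
  exact_mod_cast CharP.cast_eq_zero F 3

theorem add_cube (hF : Fintype.card F = 9) (x y : F) : (x + y) ^ 3 = x ^ 3 + y ^ 3 := by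
  have h := three0 hF
  have : (x + y) ^ 3 = x ^ 3 + y ^ 3 + 3 * (x ^ 2 * y + x * y ^ 2) := by ring
  rw [this, h]; ring

theorem pow8 (hF : Fintype.card F = 9) {x : F} (hx : x ≠ 0) : x ^ 8 = 1 := by
  have := FiniteField.pow_card_sub_one_eq_one x hx
  rwa [hF] at this

/-- the nine equations satisfied by the entries of an element of `GU F`. -/
theorem ent (g : GU F) (i j : Fin 3) :
    g.1.1 0 i * (g.1.1 2 j) ^ 3 + g.1.1 1 i * (g.1.1 1 j) ^ 3 + g.1.1 2 i * (g.1.1 0 j) ^ 3 =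
      JU F i j := by
  have h : fJ 3 (JU F) (g.1.1 *ᵥ Pi.single i 1) (g.1.1 *ᵥ Pi.single j 1) =
      fJ 3 (JU F) (Pi.single i 1) (Pi.single j 1) := g.2 (Pi.single i 1) (Pi.single j 1)
  have e1 : ∀ i : Fin 3, g.1.1 *ᵥ Pi.single i 1 = fun k => g.1.1 k i := by
    intro i
    funext k
    simp
  rw [e1, e1] at h
  have e2 : fJ 3 (JU F) (Pi.single i 1) (Pi.single j 1) = JU F i j := by
    unfold fJ fv
    rw [single_dotProduct, one_mul]
    have : (fun k => (Pi.single j (1 : F) : Fin 3 → F) k ^ 3) = Pi.single j 1 := by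
      funext k
      by_cases hk : k = j
      · subst hk; simp
      · simp [Pi.single_eq_of_ne hk]
    rw [this]
    simp
  rw [e2] at h
  rw [← h]
  unfold fJ fv JU
  simp [dotProduct, mulVec, Fin.sum_univ_three]

theorem det_one (g : GU F) : g.1.1.det = 1 := g.1.2

theorem coe_mul (g h : GU F) : (g * h).1.1 = g.1.1 * h.1.1 := rfl

theorem coe_one : (1 : GU F).1.1 = 1 := rfl

theorem gu_ext {g h : GU F} (e : g.1.1 = h.1.1) : g = h := Subtype.ext (Subtype.ext e)

theorem ud0_Tm_det (a b : F) : (Tm a b).det = 1 := by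
  unfold Tm
  rw [det_fin_three]
  simp

theorem ud0_Dm_det (hF : Fintype.card F = 9) {k : F} (hk : k ≠ 0) : (Dm k).det = 1 := by
  unfold Dm
  rw [det_fin_three]
  simp
  field_simp

theorem ud0_Tm_form (hF : Fintype.card F = 9) (a b : F) (h : b + b ^ 3 + a * a ^ 3 = 0) :
    (Tm a b)ᵀ * JU F * (Tm a b).map (frobQ (hF2 hF)) = JU F := by
  have h9 := pow9 hF a
  ext i j
  fin_cases i <;> fin_cases j <;>
    simp [Tm, JU, Matrix.mul_apply, Fin.sum_univ_three, frobQ_apply]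
  · have : (-a ^ 3) ^ 3 = -(a ^ 9) := by ring
    rw [this, h9]; ring
  · rw [← h]; ring

theorem ud0_Dm_form (hF : Fintype.card F = 9) {k : F} (hk : k ≠ 0) :
    (Dm k)ᵀ * JU F * (Dm k).map (frobQ (hF2 hF)) = JU F := by
  have h8 := pow8 hF hk
  have h9 := pow9 hF k
  ext i j
  fin_cases i <;> fin_cases j <;>
    simp [Dm, JU, Matrix.mul_apply, Fin.sum_univ_three, frobQ_apply]
  · rw [← pow_mul]; norm_num; rw [h9]; exact mul_inv_cancel₀ hk
  · rw [← pow_mul, ← pow_add]; exact h8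
  · exact inv_mul_cancel₀ (pow_ne_zero _ hk)

/-- the unipotent elements. -/
def tU (hF : Fintype.card F = 9) (a b : F) (h : b + b ^ 3 + a * a ^ 3 = 0) : GU F :=
  mkUJ (hF2 hF) (JU F) (Tm a b) (ud0_Tm_det a b) (ud0_Tm_form hF a b h)

theorem tU_coe (hF : Fintype.card F = 9) (a b : F) (h : b + b ^ 3 + a * a ^ 3 = 0) :
    (tU hF a b h).1.1 = Tm a b := rfl

/-- the diagonal elements. -/
def dU (hF : Fintype.card F = 9) (k : F) (hk : k ≠ 0) : GU F :=
  mkUJ (hF2 hF) (JU F) (Dm k) (ud0_Dm_det hF hk) (ud0_Dm_form hF hk)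

theorem dU_coe (hF : Fintype.card F = 9) (k : F) (hk : k ≠ 0) : (dU hF k hk).1.1 = Dm k := rfl

theorem Tm_mul (hF : Fintype.card F = 9) (a b c d : F) :
    Tm a b * Tm c d = Tm (a + c) (b + d - a ^ 3 * c) := by
  have h3 := add_cube hF a c
  ext i j
  fin_cases i <;> fin_cases j <;>
    simp [Tm, Matrix.mul_apply, Fin.sum_univ_three]
  · rw [h3]; ring
  · ring
  · ring

theorem Tm_zero : Tm (0 : F) 0 = 1 := by
  ext i j
  fin_cases i <;> fin_cases j <;> simp [Tm]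

theorem Tm_inj {a b c d : F} (h : Tm a b = Tm c d) : a = c ∧ b = d := by
  have h1 := congrFun (congrFun h 1) 2
  have h2 := congrFun (congrFun h 0) 2
  simp [Tm] at h1 h2
  exact ⟨h1, h2⟩

theorem Dm_mul (k l : F) : Dm k * Dm l = Dm (k * l) := by
  ext i j
  fin_cases i <;> fin_cases j <;>
    simp [Dm, Matrix.mul_apply, Fin.sum_univ_three, mul_pow, mul_comm]

theorem Dm_one : Dm (1 : F) = 1 := by
  ext i j
  fin_cases i <;> fin_cases j <;> simp [Dm]

theorem Dm_Tm (hF : Fintype.card F = 9) {k : F} (hk : k ≠ 0) (a b : F) :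
    Dm k * Tm a b = Tm (k ^ 5 * a) (k ^ 4 * b) * Dm k := by
  have h8 := pow8 hF hk
  ext i j
  fin_cases i <;> fin_cases j <;>
    simp [Dm, Tm, Matrix.mul_apply, Fin.sum_univ_three]
  · have : (k ^ 5 * a) ^ 3 * k ^ 2 = k ^ 8 * k ^ 8 * (k * a ^ 3) := by ring
    rw [this, h8]; ring
  · field_simp
  · field_simp

theorem TD_inj {a b k c d l : F} (hk : k ≠ 0) (h : Tm a b * Dm k = Tm c d * Dm l) :
    a = c ∧ b = d ∧ k = l := by
  have h0 := congrFun (congrFun h 0) 0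
  have h1 := congrFun (congrFun h 1) 2
  have h2 := congrFun (congrFun h 0) 2
  simp [Tm, Dm, Matrix.mul_apply, Fin.sum_univ_three] at h0 h1 h2
  subst h0
  have hk3 : (k ^ 3)⁻¹ ≠ 0 := inv_ne_zero (pow_ne_zero _ hk)
  exact ⟨mul_right_cancel₀ hk3 h1, mul_right_cancel₀ hk3 h2, rfl⟩

end Cfsg.Agent.Lib.Helper44.U33
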