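import Cfsg.Agent.Lib.Helper44.U33.UD0

set_option autoImplicit false
set_option linter.unusedSectionVars false

namespace Cfsg.Agent.Lib.Helper44.U33

open Cfsg Matrix

variable {F : Type*} [Field F] [Fintype F]

/-- structure of the elements fixing the isotropic point `⟨e₀⟩`. -/
theorem struct (hF : Fintype.card F = 9) (g : GU F) (h1 : g.1.1 1 0 = 0) (h2 : g.1.1 2 0 = 0) :
    ∃ a b k : F, k ≠ 0 ∧ b + b ^ 3 + a * a ^ 3 = 0 ∧ g.1.1 = Tm a b * Dm k := by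
  have e01 := ent g 0 1
  have e02 := ent g 0 2
  have e12 := ent g 1 2
  have e22 := ent g 2 2
  have hdet := det_one g
  rw [det_fin_three] at hdet
  generalize g.1.1 = M at *
  obtain ⟨k, hk⟩ : ∃ k, k = M 0 0 := ⟨_, rfl⟩
  obtain ⟨x, hx⟩ : ∃ x, x = M 0 1 := ⟨_, rfl⟩
  obtain ⟨m, hm⟩ : ∃ m, m = M 1 1 := ⟨_, rfl⟩
  obtain ⟨y, hy⟩ : ∃ y, y = M 2 1 := ⟨_, rfl⟩
  obtain ⟨b', hb⟩ : ∃ b', b' = M 0 2 := ⟨_, rfl⟩
  obtain ⟨a', ha⟩ : ∃ a', a' = M 1 2 := ⟨_, rfl⟩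
  obtain ⟨n, hn⟩ : ∃ n, n = M 2 2 := ⟨_, rfl⟩
  simp only [h1, h2, ← hk, ← hx, ← hm, ← hy, ← hb, ← ha, ← hn, JU] at e01 e02 e12 e22 hdet
  simp at e01 e02 e12 e22 hdet
  have hk0 : k ≠ 0 := by
    rintro rfl
    simp at e02
  have hy0 : y = 0 := by
    rcases e01 with h | h
    · exact absurd h hk0
    · exact h
  subst hy0
  have h8 := pow8 hF hk0
  have hn1 : k ^ 3 * n = 1 := by
    have : (k * n ^ 3) ^ 3 = k ^ 3 * n ^ 9 := by ring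
    rw [e02, pow9 hF n] at this
    rw [← this]; ring
  have hn2 : n = (k ^ 3)⁻¹ := eq_inv_of_mul_eq_one_right hn1
  have hm2 : m = k ^ 2 := by
    have e : m * (k ^ 3 * n) = (k * m * n - k * a' * 0) * k ^ 2 := by ring
    rw [hn1, hdet] at e
    rw [mul_one, one_mul] at e
    exact e
  have hx2 : x = -(k ^ 3 * a' ^ 3) := by
    have e : x * (k * n ^ 3) + k * m * a' ^ 3 = k * (x * n ^ 3 + m * a' ^ 3 + 0 * b' ^ 3) := by ring
    rw [e02, e12, hm2] at e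
    linear_combination e
  refine ⟨a' * k ^ 3, b' * k ^ 3, k, hk0, ?_, ?_⟩
  · have e : b' * k ^ 3 + (b' * k ^ 3) ^ 3 + a' * k ^ 3 * (a' * k ^ 3) ^ 3 =
        b' * k ^ 3 * (k * n ^ 3) + a' * a' ^ 3 * k ^ 4 * k ^ 8 + b' ^ 3 * k * k ^ 8 * (k ^ 3 * n) +
          b' * k ^ 3 * (1 - k * n ^ 3) + b' ^ 3 * k * k ^ 8 * (1 - k ^ 3 * n) := by ring
    rw [e, e02, hn1, h8]
    have e2 : b' * k ^ 3 * 1 + a' * a' ^ 3 * k ^ 4 * 1 + b' ^ 3 * k * 1 * 1 + b' * k ^ 3 * (1 - 1) +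
        b' ^ 3 * k * 1 * (1 - 1) = b' * k ^ 3 * (k * n ^ 3) + a' * a' ^ 3 * k ^ 4 +
          b' ^ 3 * k * (k ^ 3 * n) := by
      rw [e02, hn1]; ring
    rw [e2]
    linear_combination k ^ 4 * e22
  · have hk3 : k ^ 3 ≠ 0 := pow_ne_zero _ hk0
    ext i j
    fin_cases i <;> fin_cases j <;>
      simp [Tm, Dm, Matrix.mul_apply, Fin.sum_univ_three, h1, h2, ← hk, ← hx, ← hm, ← hy, ← hb,
        ← ha, ← hn]
    · rw [hx2]
      have e : (a' * k ^ 3) ^ 3 * k ^ 2 = k ^ 8 * (k ^ 3 * a' ^ 3) := by ring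
      rw [e, h8, one_mul]
    · field_simp
    · exact hm2
    · field_simp
    · exact hn2

end Cfsg.Agent.Lib.Helper44.U33
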