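import Cfsg.Agent.Lib.Helper44.U33.UD1

set_option autoImplicit false

namespace Cfsg.Agent.Lib.Helper44.U33

open Cfsg Matrix

variable {F : Type*} [Field F] [Fintype F]

theorem ud2_coe_inv (g : GU F) : (g⁻¹).1.1 = adjugate g.1.1 := by
  have : (g⁻¹).1 = (g.1)⁻¹ := rfl
  rw [this, Matrix.SpecialLinearGroup.coe_inv]

theorem ud2_mul_apply (g h : GU F) (i j : Fin 3) :
    (g * h).1.1 i j = g.1.1 i 0 * h.1.1 0 j + g.1.1 i 1 * h.1.1 1 j + g.1.1 i 2 * h.1.1 2 j := by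
  rw [coe_mul, Matrix.mul_apply, Fin.sum_univ_three]

theorem ud2_inv10 (g : GU F) :
    (g⁻¹).1.1 1 0 = -(g.1.1 1 0 * g.1.1 2 2) + g.1.1 1 2 * g.1.1 2 0 := by
  rw [ud2_coe_inv, Matrix.adjugate_fin_three]; simp

theorem ud2_inv20 (g : GU F) :
    (g⁻¹).1.1 2 0 = g.1.1 1 0 * g.1.1 2 1 - g.1.1 1 1 * g.1.1 2 0 := by
  rw [ud2_coe_inv, Matrix.adjugate_fin_three]; simp

theorem ud2_inv00 (g : GU F) :
    (g⁻¹).1.1 0 0 = g.1.1 1 1 * g.1.1 2 2 - g.1.1 1 2 * g.1.1 2 1 := by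
  rw [ud2_coe_inv, Matrix.adjugate_fin_three]; simp

theorem ud2_inv12 (g : GU F) :
    (g⁻¹).1.1 1 2 = -(g.1.1 0 0 * g.1.1 1 2) + g.1.1 0 2 * g.1.1 1 0 := by
  rw [ud2_coe_inv, Matrix.adjugate_fin_three]; simp

theorem ud2_det (g : GU F) (h1 : g.1.1 1 0 = 0) (h2 : g.1.1 2 0 = 0) :
    g.1.1 0 0 * (g.1.1 1 1 * g.1.1 2 2 - g.1.1 1 2 * g.1.1 2 1) = 1 := by
  have h := det_one g
  rw [Matrix.det_fin_three, h1, h2] at h
  linear_combination h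

/-- the Borel subgroup: stabiliser of `⟨e₀⟩`. -/
def BU (F : Type*) [Field F] [Fintype F] : Subgroup (GU F) where
  carrier := {g | g.1.1 1 0 = 0 ∧ g.1.1 2 0 = 0}
  mul_mem' := by
    rintro g h ⟨g1, g2⟩ ⟨h1, h2⟩
    refine ⟨?_, ?_⟩
    · rw [ud2_mul_apply, g1, h1, h2]; ring
    · rw [ud2_mul_apply, g2, h1, h2]; ring
  one_mem' := by
    refine ⟨?_, ?_⟩ <;> rw [coe_one] <;> simp
  inv_mem' := by
    rintro g ⟨g1, g2⟩
    refine ⟨?_, ?_⟩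
    · rw [ud2_inv10, g1, g2]; ring
    · rw [ud2_inv20, g1, g2]; ring

theorem mem_BU (g : GU F) : g ∈ BU F ↔ g.1.1 1 0 = 0 ∧ g.1.1 2 0 = 0 := Iff.rfl

/-- its unipotent radical. -/
def QU (F : Type*) [Field F] [Fintype F] : Subgroup (GU F) where
  carrier := {g | g.1.1 1 0 = 0 ∧ g.1.1 2 0 = 0 ∧ g.1.1 0 0 = 1}
  mul_mem' := by
    rintro g h ⟨g1, g2, g3⟩ ⟨h1, h2, h3⟩
    refine ⟨?_, ?_, ?_⟩
    · rw [ud2_mul_apply, g1, h1, h2]; ring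
    · rw [ud2_mul_apply, g2, h1, h2]; ring
    · rw [ud2_mul_apply, g3, h1, h2, h3]; ring
  one_mem' := by
    refine ⟨?_, ?_, ?_⟩ <;> rw [coe_one] <;> simp
  inv_mem' := by
    rintro g ⟨g1, g2, g3⟩
    refine ⟨?_, ?_, ?_⟩
    · rw [ud2_inv10, g1, g2]; ring
    · rw [ud2_inv20, g1, g2]; ring
    · rw [ud2_inv00]
      have h := ud2_det g g1 g2
      rw [g3, one_mul] at h
      exact h

theorem mem_QU (g : GU F) : g ∈ QU F ↔ g.1.1 1 0 = 0 ∧ g.1.1 2 0 = 0 ∧ g.1.1 0 0 = 1 := Iff.rfl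

/-- the centre of the unipotent radical. -/
def ZU (F : Type*) [Field F] [Fintype F] (hF : Fintype.card F = 9) : Subgroup (GU F) where
  carrier := {g | g.1.1 1 0 = 0 ∧ g.1.1 2 0 = 0 ∧ g.1.1 0 0 = 1 ∧ g.1.1 1 2 = 0}
  mul_mem' := by
    rintro g h ⟨g1, g2, g3, g4⟩ ⟨h1, h2, h3, h4⟩
    refine ⟨?_, ?_, ?_, ?_⟩
    · rw [ud2_mul_apply, g1, h1, h2]; ring
    · rw [ud2_mul_apply, g2, h1, h2]; ring
    · rw [ud2_mul_apply, g3, h1, h2, h3]; ring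
    · rw [ud2_mul_apply, g1, g4, h4]; ring
  one_mem' := by
    refine ⟨?_, ?_, ?_, ?_⟩ <;> rw [coe_one] <;> simp
  inv_mem' := by
    rintro g ⟨g1, g2, g3, g4⟩
    refine ⟨?_, ?_, ?_, ?_⟩
    · rw [ud2_inv10, g1, g2]; ring
    · rw [ud2_inv20, g1, g2]; ring
    · rw [ud2_inv00]
      have h := ud2_det g g1 g2
      rw [g3, one_mul] at h
      exact h
    · rw [ud2_inv12, g1, g4]; ring

theorem mem_ZU (hF : Fintype.card F = 9) (g : GU F) :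
    g ∈ ZU F hF ↔ g.1.1 1 0 = 0 ∧ g.1.1 2 0 = 0 ∧ g.1.1 0 0 = 1 ∧ g.1.1 1 2 = 0 := Iff.rfl

theorem mem_BU_iff (hF : Fintype.card F = 9) (g : GU F) :
    g ∈ BU F ↔ ∃ a b k : F, k ≠ 0 ∧ b + b ^ 3 + a * a ^ 3 = 0 ∧ g.1.1 = Tm a b * Dm k := by
  constructor
  · rintro ⟨h1, h2⟩
    exact struct hF g h1 h2
  · rintro ⟨a, b, k, -, -, e⟩
    rw [mem_BU, e]
    constructor <;> simp [Tm, Dm, Matrix.mul_apply, Fin.sum_univ_three]

theorem mem_QU_iff (hF : Fintype.card F = 9) (g : GU F) :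
    g ∈ QU F ↔ ∃ a b : F, b + b ^ 3 + a * a ^ 3 = 0 ∧ g.1.1 = Tm a b := by
  constructor
  · rintro ⟨h1, h2, h3⟩
    obtain ⟨a, b, k, hk, hab, e⟩ := struct hF g h1 h2
    refine ⟨a, b, hab, ?_⟩
    have hk1 : k = 1 := by
      rw [e] at h3
      simpa [Tm, Dm, Matrix.mul_apply, Fin.sum_univ_three] using h3
    rw [e, hk1, Dm_one, mul_one]
  · rintro ⟨a, b, -, e⟩
    rw [mem_QU, e]
    refine ⟨?_, ?_, ?_⟩ <;> simp [Tm]

theorem mem_ZU_iff (hF : Fintype.card F = 9) (g : GU F) :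
    g ∈ ZU F hF ↔ ∃ b : F, b + b ^ 3 = 0 ∧ g.1.1 = Tm 0 b := by
  constructor
  · rintro ⟨h1, h2, h3, h4⟩
    obtain ⟨a, b, hab, e⟩ := (mem_QU_iff hF g).1 ⟨h1, h2, h3⟩
    have ha : a = 0 := by
      rw [e] at h4
      simpa [Tm] using h4
    subst ha
    refine ⟨b, ?_, e⟩
    simpa using hab
  · rintro ⟨b, -, e⟩
    rw [mem_ZU, e]
    refine ⟨?_, ?_, ?_, ?_⟩ <;> simp [Tm]

/-- `δ (Tm a b * Dm k) = k`. -/
def δU (hF : Fintype.card F = 9) : BU F →* Fˣ where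
  toFun g := Units.mk0 (g.1.1.1 0 0) (by
    intro h0
    have h := ud2_det g.1 g.2.1 g.2.2
    rw [h0, zero_mul] at h
    exact zero_ne_one h)
  map_one' := by
    apply Units.ext
    show (1 : GU F).1.1 0 0 = 1
    rw [coe_one]; simp
  map_mul' := by
    intro g h
    apply Units.ext
    show (g.1 * h.1).1.1 0 0 = g.1.1.1 0 0 * h.1.1.1 0 0
    rw [ud2_mul_apply, h.2.1, h.2.2]; ring

theorem δU_coe (hF : Fintype.card F = 9) (g : BU F) : ((δU hF g : Fˣ) : F) = g.1.1.1 0 0 := rfl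

/-- `α (Tm a b) = a`. -/
def αU (hF : Fintype.card F = 9) : QU F →* Multiplicative F where
  toFun g := Multiplicative.ofAdd (g.1.1.1 1 2)
  map_one' := by
    show Multiplicative.ofAdd ((1 : GU F).1.1 1 2) = 1
    rw [coe_one]; simp
  map_mul' := by
    intro g h
    show Multiplicative.ofAdd ((g.1 * h.1).1.1 1 2) =
      Multiplicative.ofAdd (g.1.1.1 1 2) * Multiplicative.ofAdd (h.1.1.1 1 2)
    rw [← ofAdd_add]
    congr 1
    obtain ⟨a, b, -, e⟩ := (mem_QU_iff hF g.1).1 g.2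
    obtain ⟨c, d, -, e'⟩ := (mem_QU_iff hF h.1).1 h.2
    rw [ud2_mul_apply, e, e']
    simp [Tm, add_comm]

theorem αU_apply (hF : Fintype.card F = 9) (g : QU F) :
    αU hF g = Multiplicative.ofAdd (g.1.1.1 1 2) := rfl

end Cfsg.Agent.Lib.Helper44.U33
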