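import Cfsg.Agent.Lib.Helper44.U33.Defs

set_option autoImplicit false
set_option linter.unusedSimpArgs false

namespace Cfsg.Agent.Lib.Helper44.U33

open Cfsg
open scoped ComplexConjugate

variable {F : Type*} [Field F] [Fintype F] {G : Type*} [Group G]

/-- the three test elements. -/
def ugramPt (C : CfgU F G) : Fin 3 → G := ![1, C.z0, C.u0]

/-- their centralizer orders. -/
noncomputable def ugramWt : Fin 3 → ℂ := ![6048, 108, 9]

variable [Finite G]

theorem ugram_pt (C : CfgU F G) (i j : Fin 3) :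
    ∑ χ : IrrCharacter G, (χ : G → ℂ) (ugramPt C i) * conj ((χ : G → ℂ) (ugramPt C j)) =
      if i = j then ugramWt i else 0 := by
  classical
  have := Fintype.ofFinite G
  have e1 : C.z0 ≠ 1 := C.hz0.2
  have e2 : C.u0 ≠ 1 := fun h => C.hu0.2 (h ▸ C.Z.one_mem)
  have zero : ∀ g h : G, ¬ IsConj g h →
      ∑ χ : IrrCharacter G, (χ : G → ℂ) g * conj ((χ : G → ℂ) h) = 0 := by
    intro g h hc
    rw [Cfsg.Agent.Lib.Helper20.sum_irr_mul_conj g h, if_neg hc]
  have d0 : ∑ χ : IrrCharacter G, (χ : G → ℂ) 1 * conj ((χ : G → ℂ) 1) = 6048 := by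
    rw [sum_irr_mul_conj_eq_card]
    have h1 : Nat.card {z : G // z * 1 = 1 * z} = Nat.card G :=
      Nat.card_congr (Equiv.subtypeUnivEquiv (fun z => by simp))
    rw [h1, C.hcard]
    norm_num
  have d1 : ∑ χ : IrrCharacter G, (χ : G → ℂ) C.z0 * conj ((χ : G → ℂ) C.z0) = 108 := by
    rw [sum_irr_mul_conj_eq_card, C.hcz]
    norm_num
  have d2 : ∑ χ : IrrCharacter G, (χ : G → ℂ) C.u0 * conj ((χ : G → ℂ) C.u0) = 9 := by
    rw [sum_irr_mul_conj_eq_card, C.hcu]
    norm_num
  have n12 : ¬ IsConj C.z0 C.u0 := by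
    intro h
    have h1 : ∀ χ : IrrCharacter G, (χ : G → ℂ) C.z0 = (χ : G → ℂ) C.u0 := by
      intro χ
      exact Cfsg.Agent.Lib.Helper20.isClassFunction_isConj
        (Cfsg.Agent.Lib.Helper20.isClassFunction_of_isCharacter
          (Cfsg.Agent.Lib.Helper20.isCharacter_of_isIrrCharacter χ.2)) h
    simp_rw [h1] at d1
    rw [d2] at d1
    norm_num at d1
  fin_cases i <;> fin_cases j
  · simpa [ugramPt, ugramWt] using d0
  · simpa [ugramPt, ugramWt] using zero 1 C.z0 (fun h => e1 (isConj_one_right.1 h))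
  · simpa [ugramPt, ugramWt] using zero 1 C.u0 (fun h => e2 (isConj_one_right.1 h))
  · simpa [ugramPt, ugramWt] using zero C.z0 1 (fun h => e1 (isConj_one_left.1 h))
  · simpa [ugramPt, ugramWt] using d1
  · simpa [ugramPt, ugramWt] using zero _ _ n12
  · simpa [ugramPt, ugramWt] using zero C.u0 1 (fun h => e2 (isConj_one_left.1 h))
  · simpa [ugramPt, ugramWt] using zero _ _ (fun h => n12 h.symm)
  · simpa [ugramPt, ugramWt] using d2

/-- the general Gram sum -/
theorem ugram_gen (C : CfgU F G) (u v : Fin 3 → ℂ) :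
    ∑ χ : IrrCharacter G, (∑ i, u i * (χ : G → ℂ) (ugramPt C i)) *
        conj (∑ j, v j * (χ : G → ℂ) (ugramPt C j)) = ∑ i, u i * conj (v i) * ugramWt i := by
  have h1 : ∀ χ : IrrCharacter G, (∑ i, u i * (χ : G → ℂ) (ugramPt C i)) *
        conj (∑ j, v j * (χ : G → ℂ) (ugramPt C j))
      = ∑ i, ∑ j, u i * conj (v j) *
          ((χ : G → ℂ) (ugramPt C i) * conj ((χ : G → ℂ) (ugramPt C j))) := by
    intro χ
    rw [map_sum, Finset.sum_mul_sum]
    refine Finset.sum_congr rfl (fun i _ => Finset.sum_congr rfl (fun j _ => ?_))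
    rw [map_mul]
    ring
  simp_rw [h1]
  rw [Finset.sum_comm]
  refine Finset.sum_congr rfl (fun i _ => ?_)
  rw [Finset.sum_comm]
  simp_rw [← Finset.mul_sum, ugram_pt C]
  simp

/-- coefficient vectors -/
noncomputable def ugramL : Fin 3 → ℂ := ![1 / 27, 2 / 27, 24 / 27]

noncomputable def ugramA : Fin 3 → ℂ := ![1 / 27, 2 / 27, -3 / 27]

noncomputable def ugramB : Fin 3 → ℂ := ![1 / 9, -1 / 9, 0]

omit [Finite G] in
theorem ugram_lU (C : CfgU F G) (χ : G → ℂ) : lU C χ = ∑ i, ugramL i * χ (ugramPt C i) := by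
  simp only [Fin.sum_univ_three, ugramL, ugramPt, lU]
  simp only [Matrix.cons_val_zero, Matrix.cons_val_one, Matrix.cons_val]
  ring

omit [Finite G] in
theorem ugram_aU (C : CfgU F G) (χ : G → ℂ) : aU C χ = ∑ i, ugramA i * χ (ugramPt C i) := by
  simp only [Fin.sum_univ_three, ugramA, ugramPt, aU]
  simp only [Matrix.cons_val_zero, Matrix.cons_val_one, Matrix.cons_val]
  ring

omit [Finite G] in
theorem ugram_bU (C : CfgU F G) (χ : G → ℂ) : bU C χ = ∑ i, ugramB i * χ (ugramPt C i) := by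
  simp only [Fin.sum_univ_three, ugramB, ugramPt, bU]
  simp only [Matrix.cons_val_zero, Matrix.cons_val_one, Matrix.cons_val]
  ring

theorem gram_ll (C : CfgU F G) : ∑ χ : IrrCharacter G, lU C χ * conj (lU C χ) = 16 := by
  simp_rw [ugram_lU]
  rw [ugram_gen]
  simp only [Fin.sum_univ_three, ugramL, ugramWt]
  simp only [Matrix.cons_val_zero, Matrix.cons_val_one, Matrix.cons_val, map_div₀, map_one,
    map_neg, map_zero, Complex.conj_ofNat]
  norm_num

theorem gram_la (C : CfgU F G) : ∑ χ : IrrCharacter G, lU C χ * conj (aU C χ) = 8 := by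
  simp_rw [ugram_lU, ugram_aU]
  rw [ugram_gen]
  simp only [Fin.sum_univ_three, ugramL, ugramA, ugramWt]
  simp only [Matrix.cons_val_zero, Matrix.cons_val_one, Matrix.cons_val, map_div₀, map_one,
    map_neg, map_zero, Complex.conj_ofNat]
  norm_num

theorem gram_aa (C : CfgU F G) : ∑ χ : IrrCharacter G, aU C χ * conj (aU C χ) = 9 := by
  simp_rw [ugram_aU]
  rw [ugram_gen]
  simp only [Fin.sum_univ_three, ugramA, ugramWt]
  simp only [Matrix.cons_val_zero, Matrix.cons_val_one, Matrix.cons_val, map_div₀, map_one,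
    map_neg, map_zero, Complex.conj_ofNat]
  norm_num

theorem gram_lb (C : CfgU F G) : ∑ χ : IrrCharacter G, lU C χ * conj (bU C χ) = 24 := by
  simp_rw [ugram_lU, ugram_bU]
  rw [ugram_gen]
  simp only [Fin.sum_univ_three, ugramL, ugramB, ugramWt]
  simp only [Matrix.cons_val_zero, Matrix.cons_val_one, Matrix.cons_val, map_div₀, map_one,
    map_neg, map_zero, Complex.conj_ofNat]
  norm_num

theorem gram_ab (C : CfgU F G) : ∑ χ : IrrCharacter G, aU C χ * conj (bU C χ) = 24 := by
  simp_rw [ugram_aU, ugram_bU]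
  rw [ugram_gen]
  simp only [Fin.sum_univ_three, ugramA, ugramB, ugramWt]
  simp only [Matrix.cons_val_zero, Matrix.cons_val_one, Matrix.cons_val, map_div₀, map_one,
    map_neg, map_zero, Complex.conj_ofNat]
  norm_num

theorem gram_bb (C : CfgU F G) : ∑ χ : IrrCharacter G, bU C χ * conj (bU C χ) = 76 := by
  simp_rw [ugram_bU]
  rw [ugram_gen]
  simp only [Fin.sum_univ_three, ugramB, ugramWt]
  simp only [Matrix.cons_val_zero, Matrix.cons_val_one, Matrix.cons_val, map_div₀, map_one,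
    map_neg, map_zero, Complex.conj_ofNat]
  norm_num

end Cfsg.Agent.Lib.Helper44.U33
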