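import Cfsg.Agent.Lib.Helper44.U33.USUM
import Cfsg.Agent.Lib.Helper44.MulCharOrth
import Cfsg.Agent.Lib.Helper19.IndFun2
import Cfsg.Agent.Lib.Helper19.IndChar

set_option autoImplicit false

namespace Cfsg.Agent.Lib.Helper44.U33

open Cfsg
open scoped ComplexConjugate

variable {F : Type*} [Field F] [Fintype F] {G : Type*} [Group G]

/-- the linear character `λ ∘ δ` of `B`. -/
noncomputable def uindTheta (C : CfgU F G) (lam : MulChar F ℂ) : C.B →* ℂ :=
  (lam.toMonoidHom).comp ((Units.coeHom F).comp C.δ)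

theorem uindTheta_apply (C : CfgU F G) (lam : MulChar F ℂ) (x : C.B) :
    uindTheta C lam x = lam ((C.δ x : Fˣ) : F) := rfl

theorem uind_sum_ker (C : CfgU F G) [Fintype C.B] [Fintype C.Q] [DecidableEq Fˣ] (f : C.B → ℂ) :
    ∑ x : C.B, (if C.δ x = 1 then f x else 0) = ∑ y : C.Q, f ⟨y, C.hQB y.2⟩ := by
  symm
  apply Fintype.sum_of_injective (fun y : C.Q => (⟨y, C.hQB y.2⟩ : C.B))
  · intro y y' h
    exact Subtype.ext (congrArg (fun z : C.B => (z : G)) h)
  · intro x hx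
    rw [if_neg]
    intro h1
    exact hx ⟨⟨x, (C.hδ x).mp h1⟩, rfl⟩
  · intro y
    rw [if_pos]
    exact (C.hδ _).mpr y.2

theorem uind_card_B (C : CfgU F G) : Nat.card C.B = 216 := by
  classical
  have := finite_G C
  have h1 : Nat.card C.B = Nat.card C.δ.ker * Nat.card Fˣ := by
    rw [← Subgroup.card_mul_index C.δ.ker, Subgroup.index_ker,
      MonoidHom.range_eq_top.mpr C.hδs]
    congr 1
    exact Nat.card_congr Subgroup.topEquiv.toEquiv
  have h2 : Nat.card C.δ.ker = Nat.card C.Q := by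
    symm
    apply Nat.card_congr
    refine Equiv.ofBijective (fun y : C.Q =>
      (⟨⟨y, C.hQB y.2⟩, (C.hδ _).mpr y.2⟩ : C.δ.ker)) ⟨?_, ?_⟩
    · intro y y' h
      exact Subtype.ext (congrArg (fun z : C.δ.ker => ((z : C.B) : G)) h)
    · rintro ⟨x, hx⟩
      exact ⟨⟨x, (C.hδ x).mp hx⟩, rfl⟩
  rw [h1, h2, card_Q C, Nat.card_eq_fintype_card, Fintype.card_units, C.hF]

theorem uind_sum_Q (C : CfgU F G) [Fintype C.Q] {χ : G → ℂ} (hχ : IsClassFunction G χ) :
    ∑ x : C.Q, χ x = 27 * lU C χ := by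
  have h := sum_Q C hχ (fun _ => 1)
  simp only [mul_one, Finset.sum_const, Finset.card_univ, nsmul_eq_mul, C.hF] at h
  rw [h]
  unfold lU
  push_cast
  ring

variable [Fintype G]

/-- the sum of the multiplicities of the `λ ∘ δ` in `χ|_B` is `lU`. -/
theorem uind_sum_inner (C : CfgU F G) [Fintype C.B] {χ : G → ℂ} (hχ : IsClassFunction G χ) :
    ∑ lam : MulChar F ℂ, classInner (uindTheta C lam : C.B → ℂ) (fun x : C.B => χ x) =
      conj (lU C χ) := by
  classical
  have := Fintype.ofFinite C.Q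
  unfold classInner
  rw [← Finset.mul_sum, Finset.sum_comm]
  have h1 : ∀ x : C.B, ∑ lam : MulChar F ℂ, uindTheta C lam x * conj (χ x) =
      8 * (if C.δ x = 1 then conj (χ x) else 0) := by
    intro x
    rw [← Finset.sum_mul]
    simp only [uindTheta_apply]
    rw [mulChar_dual_orth, C.hF]
    split_ifs <;> norm_num
  rw [Finset.sum_congr rfl (fun x _ => h1 x), ← Finset.mul_sum, uind_sum_ker C (fun x => conj (χ x))]
  have h2 : ∑ y : C.Q, conj (χ y) = conj (27 * lU C χ) := by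
    rw [← uind_sum_Q C hχ, map_sum]
  rw [h2, uind_card_B C, map_mul]
  have hc : conj (27 : ℂ) = 27 := Complex.conj_ofNat 27
  rw [hc]
  push_cast
  ring

theorem uind_val (C : CfgU F G) (lam : MulChar F ℂ) {y : G} (hy : y ∈ C.Q) (hy1 : y ≠ 1) :
    indFun C.B (uindTheta C lam : C.B → ℂ) y = 1 := by
  classical
  have := Fintype.ofFinite C.B
  rw [Cfsg.Agent.Lib.Helper19.indFun_apply]
  have h1 : ∀ x : G, extendByZero C.B (uindTheta C lam : C.B → ℂ) (x⁻¹ * y * x) =
      extendByZero C.B (fun _ : C.B => (1 : ℂ)) x := by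
    intro x
    by_cases hx : x ∈ C.B
    · have hmem : x⁻¹ * y * x ∈ C.B := C.B.mul_mem (C.B.mul_mem (C.B.inv_mem hx) (C.hQB hy)) hx
      rw [Cfsg.Agent.Lib.Helper19.extendByZero_of_mem _ _ hmem,
        Cfsg.Agent.Lib.Helper19.extendByZero_of_mem _ _ hx, uindTheta_apply]
      have e : (⟨x⁻¹ * y * x, hmem⟩ : C.B) = (⟨x, hx⟩ : C.B)⁻¹ * ⟨y, C.hQB hy⟩ * ⟨x, hx⟩ := rfl
      have e2 : C.δ ⟨y, C.hQB hy⟩ = 1 := (C.hδ _).mpr hy
      rw [e, map_mul, map_mul, e2, map_inv]
      simp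
    · have hmem : x⁻¹ * y * x ∉ C.B := fun h => hx (C.hfix y hy hy1 x h)
      rw [Cfsg.Agent.Lib.Helper19.extendByZero_of_not_mem _ _ hmem,
        Cfsg.Agent.Lib.Helper19.extendByZero_of_not_mem _ _ hx]
  rw [Finset.sum_congr rfl (fun x _ => h1 x), Cfsg.Agent.Lib.Helper19.sum_extendByZero]
  simp only [Finset.sum_const, Finset.card_univ, nsmul_eq_mul, mul_one]
  rw [← Nat.card_eq_fintype_card]
  have : (Nat.card C.B : ℂ) ≠ 0 := by exact_mod_cast Nat.card_pos.ne'
  field_simp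

theorem uind_one (C : CfgU F G) (lam : MulChar F ℂ) :
    indFun C.B (uindTheta C lam : C.B → ℂ) 1 = 28 := by
  classical
  rw [Cfsg.Agent.Lib.Helper19.indFun_apply]
  have h1 : ∀ x : G, extendByZero C.B (uindTheta C lam : C.B → ℂ) (x⁻¹ * 1 * x) = 1 := by
    intro x
    have e : x⁻¹ * 1 * x = ((1 : C.B) : G) := by simp
    rw [e, Cfsg.Agent.Lib.Helper19.extendByZero_coe, map_one]
  rw [Finset.sum_congr rfl (fun x _ => h1 x)]
  simp only [Finset.sum_const, Finset.card_univ, nsmul_eq_mul, mul_one]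
  rw [← Nat.card_eq_fintype_card, uind_card_B C, C.hcard]
  norm_num

theorem exists_ind (C : CfgU F G) (χ : IrrCharacter G) (h : lU C χ ≠ 0) :
    ∃ R : G → ℂ, IsCharacter G R ∧ classInner R χ ≠ 0 ∧ R 1 = 28 ∧ R C.z0 = 1 ∧ R C.u0 = 1 ∧
      ∀ χ' : IrrCharacter G, classInner R χ' ≠ 0 → lU C χ' ≠ 0 := by
  classical
  have := Fintype.ofFinite C.B
  have hch : ∀ χ : IrrCharacter G, IsCharacter G (χ : G → ℂ) :=
    fun χ => Cfsg.Agent.Lib.Helper20.isCharacter_of_isIrrCharacter χ.2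
  have hcl : ∀ χ : IrrCharacter G, IsClassFunction G (χ : G → ℂ) :=
    fun χ => Cfsg.Agent.Lib.Helper20.isClassFunction_of_isCharacter (hch χ)
  -- the multiplicities are natural numbers
  have hnat : ∀ (χ' : IrrCharacter G) (lam : MulChar F ℂ), ∃ n : ℕ,
      classInner (uindTheta C lam : C.B → ℂ) (fun x : C.B => (χ' : G → ℂ) x) = n := by
    intro χ' lam
    have h1 : IsCharacter C.B (fun x : C.B => (χ' : G → ℂ) x) :=
      Cfsg.Agent.Lib.Helper20.isCharacter_comp_hom (hch χ') C.B.subtype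
    obtain ⟨n, hn⟩ := Cfsg.Agent.Lib.Helper20.isCharacter_classInner_nat h1
      (isIrrCharacter_monoidHom (uindTheta C lam))
    refine ⟨n, ?_⟩
    rw [← Cfsg.Agent.Lib.Helper20.classInner_conj_symm, hn]
    simp
  have hex : ∃ lam : MulChar F ℂ,
      classInner (uindTheta C lam : C.B → ℂ) (fun x : C.B => (χ : G → ℂ) x) ≠ 0 := by
    by_contra hcon
    push Not at hcon
    apply h
    have := uind_sum_inner C (hcl χ)
    rw [Finset.sum_congr rfl (fun lam _ => hcon lam)] at this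
    simp only [Finset.sum_const_zero] at this
    have h2 := congrArg conj this
    simpa using h2.symm
  obtain ⟨lam, hlam⟩ := hex
  have hu1 : C.u0 ≠ 1 := fun e => C.hu0.2 (e ▸ C.Z.one_mem)
  refine ⟨indFun C.B (uindTheta C lam : C.B → ℂ),
    Cfsg.Agent.Lib.Helper19.isCharacter_indFun C.B _ (isCharacter_monoidHom _), ?_, uind_one C lam,
    uind_val C lam (C.hZQ C.hz0.1) C.hz0.2, uind_val C lam C.hu0.1 hu1, ?_⟩
  · rw [Cfsg.Agent.Lib.Helper19.frobenius_reciprocity C.B _ _ (hcl χ)]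
    exact hlam
  · intro χ' hχ' h0
    rw [Cfsg.Agent.Lib.Helper19.frobenius_reciprocity C.B _ _ (hcl χ')] at hχ'
    have hs := uind_sum_inner C (hcl χ')
    rw [h0, map_zero] at hs
    choose n hn using hnat χ'
    simp only [hn] at hs hχ'
    have hs' : ∑ lam : MulChar F ℂ, n lam = 0 := by exact_mod_cast hs
    have := (Finset.sum_eq_zero_iff.mp hs') lam (Finset.mem_univ _)
    apply hχ'
    rw [this]
    simp

end Cfsg.Agent.Lib.Helper44.U33
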