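import Cfsg.Agent.Lib.Helper44.U33.USUM
import Cfsg.Agent.Lib.Helper44.SuzBound

set_option autoImplicit false

namespace Cfsg.Agent.Lib.Helper44.U33

open Cfsg
open scoped ComplexConjugate

section abs

variable {Q : Type*} [Group Q]

/-- one third of the multiplicity of the character `z ↦ ω` of `⟨z⟩` -/
noncomputable def uintbN (z : Q) (ω : ℂ) (φ : Q → ℂ) : ℂ := (φ 1 + ω ^ 2 * φ z + ω * φ (z ^ 2)) / 9

theorem uintbN_add (z : Q) (ω : ℂ) (φ₁ φ₂ : Q → ℂ) :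
    uintbN z ω (φ₁ + φ₂) = uintbN z ω φ₁ + uintbN z ω φ₂ := by
  unfold uintbN
  simp only [Pi.add_apply]
  ring

theorem uintbN_zero (z : Q) (ω : ℂ) : uintbN z ω 0 = 0 := by
  simp [uintbN]

theorem uintb_exists_omega : ∃ ω : ℂ, ω ^ 2 + ω + 1 = 0 := by
  obtain ⟨s, hs⟩ := IsAlgClosed.exists_pow_nat_eq (-3 : ℂ) (n := 2) (by norm_num)
  exact ⟨(-1 + s) / 2, by linear_combination (1 / 4 : ℂ) * hs⟩

theorem uintb_irr [Fintype Q] (hQ : Nat.card Q = 27) (z : Q) (hz : z ∈ Subgroup.center Q)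
    (hz3 : z ^ 3 = 1) (hz1 : z ≠ 1)
    (hcomm : ∀ y : Q, y ≠ 1 → y ≠ z → y ≠ z ^ 2 →
      ∃ x : Q, x * y * x⁻¹ * y⁻¹ = z ∨ x * y * x⁻¹ * y⁻¹ = z ^ 2)
    {ω : ℂ} (hω : ω ^ 2 + ω + 1 = 0) {η : Q → ℂ} (hη : IsIrrCharacter Q η) :
    ∃ k : ℕ, uintbN z ω η = k := by
  classical
  have hch := Cfsg.Agent.Lib.Helper20.isCharacter_of_isIrrCharacter hη
  have hcl := Cfsg.Agent.Lib.Helper20.isClassFunction_of_isCharacter hch
  have h1 := Cfsg.Agent.Lib.Helper79.IsIrrCharacter.one_ne_zero hη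
  obtain ⟨n, hn⟩ := Cfsg.Agent.Lib.Helper20.isCharacter_apply_one hch
  set c : ℂ := η z / η 1 with hc
  have hmul : ∀ g, η (g * z) = c * η g :=
    fun g => Cfsg.Agent.Lib.Helper79.IsIrrCharacter.mul_central hη z hz g
  have e1 : η z = c * η 1 := by
    have := hmul 1
    rwa [one_mul] at this
  have e2 : η (z ^ 2) = c ^ 2 * η 1 := by
    rw [pow_two, hmul, e1]; ring
  have hmul2 : ∀ g, η (g * z ^ 2) = c ^ 2 * η g := by
    intro g
    rw [pow_two, ← mul_assoc, hmul, hmul]; ring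
  have e3 : c ^ 3 = 1 := by
    have : η (z ^ 3) = c ^ 3 * η 1 := by
      rw [pow_succ, hmul, e2]; ring
    rw [hz3] at this
    have h2 : (c ^ 3 - 1) * η 1 = 0 := by linear_combination -this
    exact sub_eq_zero.1 ((mul_eq_zero.1 h2).resolve_right h1)
  have hω3 : ω ^ 3 = 1 := by linear_combination (ω - 1) * hω
  have hN : uintbN z ω η = η 1 * (1 + ω ^ 2 * c + ω * c ^ 2) / 9 := by
    unfold uintbN
    rw [e1, e2]; ring
  have hfac : (c - 1) * ((c - ω) * (c - ω ^ 2)) = 0 := by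
    linear_combination e3 - c * (c - 1) * hω + (c - 1) * hω3
  rcases mul_eq_zero.1 hfac with h | h
  · have hc1 : c = 1 := sub_eq_zero.1 h
    refine ⟨0, ?_⟩
    rw [hN, hc1]
    push_cast
    linear_combination (η 1 / 9) * hω
  rcases mul_eq_zero.1 h with h | h
  swap
  · have hc1 : c = ω ^ 2 := sub_eq_zero.1 h
    refine ⟨0, ?_⟩
    rw [hN, hc1]
    push_cast
    linear_combination (η 1 / 9) * hω + (η 1 / 9) * (ω + ω ^ 2) * hω3
  have hc1 : c = ω := sub_eq_zero.1 h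
  have hcne : c ≠ 1 := by
    rw [hc1]
    intro h
    rw [h] at hω
    norm_num at hω
  have hcne2 : c ^ 2 ≠ 1 := by
    rw [hc1]
    intro h
    have h2 : ω = -2 := by linear_combination hω - h
    rw [h2] at h
    norm_num at h
  have hvan : ∀ y : Q, y ≠ 1 → y ≠ z → y ≠ z ^ 2 → η y = 0 := by
    intro y y1 y2 y3
    have hz2 : z ^ 2 ∈ Subgroup.center Q := Subgroup.pow_mem _ hz 2
    obtain ⟨x, hx | hx⟩ := hcomm y y1 y2 y3
    · have e : x * y * x⁻¹ = y * z := by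
        rw [(Subgroup.mem_center_iff.1 hz y), ← hx]; group
      have h2 := hcl y x
      rw [e, hmul] at h2
      have h3 : (c - 1) * η y = 0 := by linear_combination h2
      exact (mul_eq_zero.1 h3).resolve_left (sub_ne_zero.2 hcne)
    · have e : x * y * x⁻¹ = y * z ^ 2 := by
        rw [(Subgroup.mem_center_iff.1 hz2 y), ← hx]; group
      have h2 := hcl y x
      rw [e, hmul2] at h2
      have h3 : (c ^ 2 - 1) * η y = 0 := by linear_combination h2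
      exact (mul_eq_zero.1 h3).resolve_left (sub_ne_zero.2 hcne2)
  have hcc : c * conj c = 1 := by
    have h2 : ‖c‖ = 1 := Complex.norm_eq_one_of_pow_eq_one e3 (by norm_num)
    rw [Complex.mul_conj, Complex.normSq_eq_norm_sq, h2]
    norm_num
  have hnorm := Cfsg.Agent.Lib.Helper20.classInner_irr_self hη
  unfold classInner at hnorm
  rw [hQ] at hnorm
  have d1 : (1 : Q) ≠ z := fun h => hz1 h.symm
  have d2 : (1 : Q) ≠ z ^ 2 := by
    intro h
    apply hz1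
    have : z ^ 3 = z ^ 2 * z := pow_succ z 2
    rw [hz3, ← h, one_mul] at this
    exact this.symm
  have d3 : z ≠ z ^ 2 := by
    intro h
    apply hz1
    have : z * 1 = z * z := by rw [mul_one, ← pow_two]; exact h
    exact (mul_left_cancel this).symm
  have hsum : ∑ g : Q, η g * conj (η g) = ∑ g ∈ ({1, z, z ^ 2} : Finset Q), η g * conj (η g) := by
    symm
    apply Finset.sum_subset (Finset.subset_univ _)
    intro y _ hy
    simp only [Finset.mem_insert, Finset.mem_singleton, not_or] at hy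
    rw [hvan y hy.1 hy.2.1 hy.2.2, zero_mul]
  rw [hsum, Finset.sum_insert (by simp [d1, d2]), Finset.sum_insert (by simp [d3]),
    Finset.sum_singleton, e1, e2, hn] at hnorm
  simp only [map_mul, map_pow, Complex.conj_natCast] at hnorm
  have h9 : (n : ℂ) ^ 2 = 9 := by
    have hcc2 : c ^ 2 * conj c ^ 2 = 1 := by rw [← mul_pow, hcc, one_pow]
    push_cast at hnorm
    have h3 : (n : ℂ) * n + c * n * (conj c * n) + c ^ 2 * n * (conj c ^ 2 * n) = 27 := by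
      field_simp at hnorm
      linear_combination hnorm
    linear_combination (1 / 3 : ℂ) * h3 - (1 / 3 : ℂ) * (n : ℂ) ^ 2 * hcc
      - (1 / 3 : ℂ) * (n : ℂ) ^ 2 * hcc2
  have h9' : n ^ 2 = 3 ^ 2 := by exact_mod_cast h9
  have hn3 : n = 3 := Nat.pow_left_injective (by norm_num : 2 ≠ 0) h9'
  refine ⟨1, ?_⟩
  rw [hN, hc1, hn, hn3]
  push_cast
  linear_combination (2 / 3 : ℂ) * hω3

theorem uintb_char [Fintype Q] (hQ : Nat.card Q = 27) (z : Q) (hz : z ∈ Subgroup.center Q)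
    (hz3 : z ^ 3 = 1) (hz1 : z ≠ 1)
    (hcomm : ∀ y : Q, y ≠ 1 → y ≠ z → y ≠ z ^ 2 →
      ∃ x : Q, x * y * x⁻¹ * y⁻¹ = z ∨ x * y * x⁻¹ * y⁻¹ = z ^ 2)
    {ω : ℂ} (hω : ω ^ 2 + ω + 1 = 0) {φ : Q → ℂ} (hφ : IsCharacter Q φ) :
    ∃ k : ℕ, uintbN z ω φ = k := by
  obtain ⟨l, rfl⟩ := Cfsg.Agent.Lib.Helper20.exists_multiset_of_isCharacter hφ
  clear hφ
  induction l using Multiset.induction_on with
  | empty => exact ⟨0, by simp [uintbN_zero]⟩
  | cons a l ih =>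
    obtain ⟨k₁, hk₁⟩ := ih
    obtain ⟨k₂, hk₂⟩ := uintb_irr hQ z hz hz3 hz1 hcomm hω a.2
    refine ⟨k₂ + k₁, ?_⟩
    rw [Multiset.map_cons, Multiset.sum_cons, uintbN_add, hk₁, hk₂]
    push_cast
    ring

end abs

variable {F : Type*} [Field F] [Fintype F] {G : Type*} [Group G]

/-- the elements of `Z` -/
theorem uintb_mem_Z (C : CfgU F G) {y : G} (hy : y ∈ C.Z) : y = 1 ∨ y = C.z0 ∨ y = C.z0 ^ 2 := by
  have : Fact (Nat.Prime 3) := ⟨Nat.prime_three⟩
  have hne : (⟨C.z0, C.hz0.1⟩ : C.Z) ≠ 1 := fun h => C.hz0.2 (congrArg Subtype.val h)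
  have h3 : (⟨C.z0, C.hz0.1⟩ : C.Z) ^ 3 = 1 := by
    rw [← C.hZ]; exact pow_card_eq_one'
  obtain ⟨k, hk⟩ := mem_powers_of_prime_card C.hZ hne (g' := ⟨y, hy⟩)
  have hk' : (⟨C.z0, C.hz0.1⟩ : C.Z) ^ k = ⟨y, hy⟩ := hk
  rw [pow_eq_pow_mod k h3] at hk'
  have hlt : k % 3 < 3 := Nat.mod_lt _ (by norm_num)
  have hv : C.z0 ^ (k % 3) = y := congrArg Subtype.val hk'
  interval_cases (k % 3)
  · left; simpa using hv.symm
  · right; left; simpa using hv.symm
  · right; right; exact hv.symm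

theorem bU_nat (C : CfgU F G) {χ : G → ℂ} (hχ : IsCharacter G χ) : ∃ n : ℕ, bU C χ = n := by
  classical
  have hfin : Finite G := finite_G C
  have _ : Fintype C.Q := Fintype.ofFinite _
  have hcl := Cfsg.Agent.Lib.Helper20.isClassFunction_of_isCharacter hχ
  have hφ : IsCharacter C.Q (χ ∘ C.Q.subtype) := Cfsg.Agent.Lib.Helper20.isCharacter_comp_hom hχ _
  obtain ⟨ω, hω⟩ := uintb_exists_omega
  have hz0Q : C.z0 ∈ C.Q := C.hZQ C.hz0.1
  have h3 : C.z0 ^ 3 = 1 := by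
    have : (⟨C.z0, C.hz0.1⟩ : C.Z) ^ 3 = 1 := by
      rw [← C.hZ]; exact pow_card_eq_one'
    exact congrArg Subtype.val this
  have hz2 : C.z0 ^ 2 ∈ C.Z := Subgroup.pow_mem _ C.hz0.1 2
  have hz2ne : C.z0 ^ 2 ≠ 1 := by
    intro h
    apply C.hz0.2
    have : C.z0 ^ 3 = C.z0 ^ 2 * C.z0 := pow_succ _ 2
    rw [h3, h, one_mul] at this
    exact this.symm
  obtain ⟨k, hk⟩ := uintb_char (card_Q C) (⟨C.z0, hz0Q⟩ : C.Q)
    (by
      rw [Subgroup.mem_center_iff]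
      intro g
      apply Subtype.ext
      exact (C.hcen C.z0 C.hz0.1 g g.2).symm)
    (Subtype.ext h3) (fun h => C.hz0.2 (congrArg Subtype.val h))
    (by
      intro y y1 y2 y3
      have hyZ : (y : G) ∉ C.Z := by
        intro hy
        rcases uintb_mem_Z C hy with h | h | h
        · exact y1 (Subtype.ext h)
        · exact y2 (Subtype.ext h)
        · exact y3 (Subtype.ext h)
      obtain ⟨x, hx, hw, hw1⟩ := C.hcomm y y.2 hyZ
      refine ⟨⟨x, hx⟩, ?_⟩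
      rcases uintb_mem_Z C hw with h | h | h
      · exact absurd h hw1
      · exact Or.inl (Subtype.ext h)
      · exact Or.inr (Subtype.ext h))
    hω hφ
  refine ⟨k, ?_⟩
  rw [← hk]
  have e2 : χ (C.z0 ^ 2) = χ C.z0 := by
    obtain ⟨c, hc⟩ := isConj_iff.1 (C.hconjZ _ hz2 hz2ne)
    rw [← hc]
    exact hcl _ _
  unfold bU uintbN
  have v1 : (χ ∘ C.Q.subtype) 1 = χ 1 := rfl
  have v2 : (χ ∘ C.Q.subtype) (⟨C.z0, hz0Q⟩ : C.Q) = χ C.z0 := rfl
  have v3 : (χ ∘ C.Q.subtype) ((⟨C.z0, hz0Q⟩ : C.Q) ^ 2) = χ (C.z0 ^ 2) := rfl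
  rw [v1, v2, v3, e2]
  linear_combination (-(χ C.z0) / 9) * hω

end Cfsg.Agent.Lib.Helper44.U33
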