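import Cfsg.Agent.Lib.Helper44.U33.USUM

set_option autoImplicit false

namespace Cfsg.Agent.Lib.Helper44.U33

open Cfsg
open scoped ComplexConjugate

variable {F : Type*} [Field F] [Fintype F] {G : Type*} [Group G]

/-- the linear character `x ↦ ν (α x)` of `Q`. -/
noncomputable def uintlaHom (C : CfgU F G) (ν : AddChar F ℂ) : C.Q →* ℂ :=
  ν.toMonoidHom.comp C.α

theorem uintla_nat (C : CfgU F G) [Fintype C.Q] {χ : G → ℂ} (hχ : IsCharacter G χ)
    (ν : AddChar F ℂ) :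
    ∃ n : ℕ, (27 : ℂ)⁻¹ * ∑ x : C.Q, χ x * conj (ν (Multiplicative.toAdd (C.α x))) = n := by
  classical
  have := finite_G C
  have h1 : IsCharacter C.Q (fun x : C.Q => χ x) :=
    Cfsg.Agent.Lib.Helper20.isCharacter_restrict hχ C.Q
  have h2 : IsIrrCharacter C.Q (uintlaHom C ν) := isIrrCharacter_monoidHom _
  obtain ⟨n, hn⟩ := Cfsg.Agent.Lib.Helper20.isCharacter_classInner_nat h1 h2
  refine ⟨n, ?_⟩
  rw [← hn]
  unfold classInner
  congr 1
  rw [card_Q C]; norm_num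

theorem lU_nat (C : CfgU F G) {χ : G → ℂ} (hχ : IsCharacter G χ) : ∃ n : ℕ, lU C χ = n := by
  classical
  have := finite_G C
  have := Fintype.ofFinite C.Q
  obtain ⟨n, hn⟩ := uintla_nat C hχ 1
  refine ⟨n, ?_⟩
  rw [← hn, sum_Q C (Cfsg.Agent.Lib.Helper20.isClassFunction_of_isCharacter hχ)
    (fun a => conj ((1 : AddChar F ℂ) a))]
  simp only [AddChar.one_apply, map_one, Finset.sum_const, Finset.card_univ, nsmul_eq_mul,
    C.hF, mul_one]
  unfold lU
  push_cast
  ring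

theorem aU_nat (C : CfgU F G) {χ : G → ℂ} (hχ : IsCharacter G χ) : ∃ n : ℕ, aU C χ = n := by
  classical
  have := finite_G C
  have := Fintype.ofFinite C.Q
  obtain ⟨ν, hν⟩ := (AddChar.exists_apply_ne_zero (α := F) (a := 1)).2 one_ne_zero
  have hν1 : ν ≠ 1 := by
    intro h
    rw [h] at hν
    exact hν rfl
  have hs : ∑ a : F, ν a = 0 := AddChar.sum_eq_zero_of_ne_one hν1
  obtain ⟨n, hn⟩ := uintla_nat C hχ ν
  refine ⟨n, ?_⟩
  rw [← hn, sum_Q C (Cfsg.Agent.Lib.Helper20.isClassFunction_of_isCharacter hχ)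
    (fun a => conj (ν a))]
  rw [← map_sum, hs, AddChar.map_zero_eq_one, map_one, map_zero]
  unfold aU
  ring

end Cfsg.Agent.Lib.Helper44.U33
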