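import Cfsg.Agent.Lib.Helper44.U33.UIND
import Cfsg.Agent.Lib.Helper44.U33.UINTLA
import Cfsg.Agent.Lib.Helper44.U33.UINTB
import Cfsg.Agent.Lib.Helper77.GlaubCore

set_option autoImplicit false
set_option linter.unusedSectionVars false

namespace Cfsg.Agent.Lib.Helper44.U33

open Cfsg
open scoped ComplexConjugate

variable {F : Type*} [Field F] [Fintype F] {G : Type*} [Group G]

variable [Fintype G]

theorem unonc_exists {R : G → ℂ} (hR : IsCharacter G R) (hne : R ≠ 0) :
    ∃ χ' : IrrCharacter G, classInner R χ' ≠ 0 := by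
  by_contra hcon
  push Not at hcon
  apply hne
  have h := Helper20.eq_sum_classInner_smul (Helper82.isChar_isClassFunction hR)
  simp only [hcon, zero_smul, Finset.sum_const_zero] at h
  exact h

theorem unonc_zero (C : CfgU F G) {R : G → ℂ} (hR : IsCharacter G R) (hl : lU C R = 0)
    (hcons : ∀ χ' : IrrCharacter G, classInner R χ' ≠ 0 → lU C χ' ≠ 0) : R = 0 := by
  by_contra hne
  obtain ⟨χ', hχ'⟩ := unonc_exists hR hne
  have h1 := hcons χ' hχ'
  obtain ⟨φ, hφ, rfl⟩ := exists_add_of_classInner_ne_zero hR χ'.2 hχ'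
  rw [lU_add] at hl
  obtain ⟨a, ha⟩ := lU_nat C (Helper82.isIrr_isChar χ'.2)
  obtain ⟨b, hb⟩ := lU_nat C hφ
  rw [ha] at h1 hl
  rw [hb] at hl
  have h2 : a + b = 0 := by exact_mod_cast hl
  apply h1
  have h3 : a = 0 := by omega
  simp [h3]

theorem unonc_cons {χ φ : G → ℂ} (hχ : IsCharacter G χ) (hφ : IsCharacter G φ)
    (χ' : IrrCharacter G) (h : classInner φ χ' ≠ 0) : classInner (χ + φ) χ' ≠ 0 := by
  rw [Helper20.classInner_add_left]
  obtain ⟨a, ha⟩ := Helper20.isCharacter_classInner_nat hχ χ'.2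
  obtain ⟨b, hb⟩ := Helper20.isCharacter_classInner_nat hφ χ'.2
  rw [ha, hb]
  rw [hb] at h
  have h1 : b ≠ 0 := by exact_mod_cast h
  have h2 : a + b ≠ 0 := by omega
  exact_mod_cast h2

theorem unonc_deg (C : CfgU F G) (ψ : IrrCharacter G) (hl : lU C ψ = 1) (ha : aU C ψ = 0)
    (b : ℕ) (hb : bU C ψ = b) (hb' : b ≤ 3) : b = 0 ∨ b = 1 := by
  obtain ⟨d, hd1, hd2, -⟩ := Helper77.irr_degree_dvd ψ.2
  have h1 := degree_eq C (ψ : G → ℂ)
  rw [hd1, hl, ha, hb] at h1
  have h2 : d = 1 + 6 * b := by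
    have h3 : (d : ℂ) = ((1 + 6 * b : ℕ) : ℂ) := by
      rw [h1]
      push_cast
      ring
    exact_mod_cast h3
  rw [C.hcard, h2] at hd2
  interval_cases b
  · left; rfl
  · right; rfl
  · norm_num at hd2
  · norm_num at hd2

theorem noncusp (C : CfgU F G) (χ : IrrCharacter G) (h : lU C χ ≠ 0) :
    (lU C χ = 1 ∧ aU C χ = 0 ∧ bU C χ = 0) ∨
    (lU C χ = 1 ∧ aU C χ = 0 ∧ bU C χ = 1) ∨
    (lU C χ = 1 ∧ aU C χ = 1 ∧ bU C χ = 2) ∨
    (lU C χ = 1 ∧ aU C χ = 1 ∧ bU C χ = 3) ∨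
    (lU C χ = 2 ∧ aU C χ = 1 ∧ bU C χ = 3) := by
  obtain ⟨R, hR, hRχ, hR1, hR2, hR3, hcons⟩ := exists_ind C χ h
  have lR : lU C R = 2 := by
    unfold lU; rw [hR1, hR2, hR3]; norm_num
  have aR : aU C R = 1 := by
    unfold aU; rw [hR1, hR2, hR3]; norm_num
  have bR : bU C R = 3 := by
    unfold bU; rw [hR1, hR2]; norm_num
  have z1 : lU C (0 : G → ℂ) = 0 := by unfold lU; simp
  have z2 : aU C (0 : G → ℂ) = 0 := by unfold aU; simp
  have z3 : bU C (0 : G → ℂ) = 0 := by unfold bU; simp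
  have hχc := Helper82.isIrr_isChar χ.2
  obtain ⟨R', hR', rfl⟩ := exists_add_of_classInner_ne_zero hR χ.2 hRχ
  rw [lU_add] at lR
  rw [aU_add] at aR
  rw [bU_add] at bR
  have hcons' : ∀ χ' : IrrCharacter G, classInner R' χ' ≠ 0 → lU C χ' ≠ 0 := fun χ' h' =>
    hcons χ' (unonc_cons hχc hR' χ' h')
  obtain ⟨l, hl⟩ := lU_nat C hχc
  obtain ⟨a, ha⟩ := aU_nat C hχc
  obtain ⟨b, hb⟩ := bU_nat C hχc
  obtain ⟨l', hl'⟩ := lU_nat C hR'
  obtain ⟨a', ha'⟩ := aU_nat C hR'
  obtain ⟨b', hb'⟩ := bU_nat C hR'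
  have el : l + l' = 2 := by rw [hl, hl'] at lR; exact_mod_cast lR
  have ea : a + a' = 1 := by rw [ha, ha'] at aR; exact_mod_cast aR
  have eb : b + b' = 3 := by rw [hb, hb'] at bR; exact_mod_cast bR
  have l0 : l ≠ 0 := by
    intro h0
    apply h
    rw [hl, h0]; simp
  by_cases hl2 : l = 2
  · have h0 : R' = 0 := unonc_zero C hR' (by
      rw [hl']
      have : l' = 0 := by omega
      simp [this]) hcons'
    subst h0
    rw [z2] at aR
    rw [z3] at bR
    right; right; right; right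
    refine ⟨by rw [hl, hl2]; simp, by simpa using aR, by simpa using bR⟩
  · have hl1 : l = 1 := by omega
    have hl1' : l' = 1 := by omega
    have hne : R' ≠ 0 := by
      intro h0
      rw [h0, z1] at hl'
      have : l' = 0 := by exact_mod_cast hl'.symm
      omega
    obtain ⟨χ', hχ'⟩ := unonc_exists hR' hne
    have hχ'l := hcons' χ' hχ'
    have hχ'c := Helper82.isIrr_isChar χ'.2
    obtain ⟨R'', hR'', rfl⟩ := exists_add_of_classInner_ne_zero hR' χ'.2 hχ'
    obtain ⟨l1, hl1a⟩ := lU_nat C hχ'c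
    obtain ⟨l2, hl2a⟩ := lU_nat C hR''
    rw [lU_add, hl1a, hl2a] at hl'
    have e3 : l1 + l2 = l' := by exact_mod_cast hl'
    have l10 : l1 ≠ 0 := by
      intro h0
      apply hχ'l
      rw [hl1a, h0]; simp
    have h0 : R'' = 0 := unonc_zero C hR'' (by
      rw [hl2a]
      have : l2 = 0 := by omega
      simp [this]) (fun χ'' h'' => hcons' χ'' (unonc_cons hχ'c hR'' χ'' h''))
    subst h0
    rw [add_zero] at ha' hb'
    by_cases ha0 : a = 0
    · rcases unonc_deg C χ (by rw [hl, hl1]; simp) (by rw [ha, ha0]; simp) b hb (by omega) with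
        h3 | h3
      · left
        exact ⟨by rw [hl, hl1]; simp, by rw [ha, ha0]; simp, by rw [hb, h3]; simp⟩
      · right; left
        exact ⟨by rw [hl, hl1]; simp, by rw [ha, ha0]; simp, by rw [hb, h3]; simp⟩
    · have ha1 : a = 1 := by omega
      have ha0' : a' = 0 := by omega
      rcases unonc_deg C χ' (by
        rw [hl1a]
        have : l1 = 1 := by omega
        simp [this]) (by rw [ha', ha0']; simp) b' hb' (by omega) with h3 | h3
      · right; right; right; left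
        refine ⟨by rw [hl, hl1]; simp, by rw [ha, ha1]; simp, ?_⟩
        rw [hb]
        have : b = 3 := by omega
        rw [this]; norm_num
      · right; right; left
        refine ⟨by rw [hl, hl1]; simp, by rw [ha, ha1]; simp, ?_⟩
        rw [hb]
        have : b = 2 := by omega
        rw [this]; norm_num

end Cfsg.Agent.Lib.Helper44.U33
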