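import Cfsg.Agent.Lib.Helper44.U33.Defs

set_option autoImplicit false

namespace Cfsg.Agent.Lib.Helper44.U33

open Cfsg
open scoped ComplexConjugate

variable {F : Type*} [Field F] [Fintype F] {G : Type*} [Group G]

theorem finite_G (C : CfgU F G) : Finite G :=
  Nat.finite_of_card_ne_zero (by rw [C.hcard]; norm_num)

theorem usum_ker (C : CfgU F G) : C.α.ker = C.Z.subgroupOf C.Q := by
  ext x
  rw [MonoidHom.mem_ker, C.hαk, Subgroup.mem_subgroupOf]

theorem usum_card_ker (C : CfgU F G) : Nat.card C.α.ker = 3 := by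
  rw [usum_ker, Nat.card_congr (Subgroup.subgroupOfEquivOfLe C.hZQ).toEquiv, C.hZ]

theorem card_Q (C : CfgU F G) : Nat.card C.Q = 27 := by
  have h1 := C.α.ker.card_mul_index
  rw [Subgroup.index_ker, usum_card_ker, MonoidHom.range_eq_top.2 C.hα, Subgroup.card_top,
    Nat.card_eq_fintype_card, Fintype.card_multiplicative, C.hF] at h1
  omega

omit [Fintype F] [Field F] in
theorem usum_conj {χ : G → ℂ} (hχ : IsClassFunction G χ) {x y : G} (h : IsConj x y) : χ y = χ x := by
  obtain ⟨c, hc⟩ := isConj_iff.1 h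
  rw [← hc]; exact hχ x c

open Classical in
theorem usum_fiber (C : CfgU F G) [Fintype C.Q] (a : Multiplicative F) :
    (Finset.univ.filter (fun x : C.Q => C.α x = a)).card = 3 := by
  have h1 : (Finset.univ.filter (fun x : C.Q => C.α x = a)).card =
      (Finset.univ.filter (fun x : C.Q => C.α x = 1)).card :=
    MonoidHom.card_fiber_eq_of_mem_range C.α (C.hα a) (C.hα 1)
  rw [h1]
  have h2 := usum_card_ker C
  rw [Nat.card_eq_fintype_card] at h2
  rw [← h2, Fintype.card_subtype]
  congr 1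
  ext x
  simp [MonoidHom.mem_ker]

open Classical in
theorem usum_comp (C : CfgU F G) [Fintype C.Q] (w : F → ℂ) :
    ∑ x : C.Q, w (Multiplicative.toAdd (C.α x)) = 3 * ∑ a : F, w a := by
  have h1 : ∑ x : C.Q, w (Multiplicative.toAdd (C.α x)) =
      ∑ a : Multiplicative F, ∑ x ∈ Finset.univ.filter (fun x : C.Q => C.α x = a),
        w (Multiplicative.toAdd (C.α x)) :=
    (Finset.sum_fiberwise Finset.univ (fun x : C.Q => C.α x) _).symm
  rw [h1]
  have h2 : ∀ a : Multiplicative F, ∑ x ∈ Finset.univ.filter (fun x : C.Q => C.α x = a),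
        w (Multiplicative.toAdd (C.α x)) = 3 * w (Multiplicative.toAdd a) := by
    intro a
    rw [Finset.sum_congr rfl (g := fun _ => w (Multiplicative.toAdd a))
      (fun x hx => by rw [(Finset.mem_filter.1 hx).2]), Finset.sum_const, usum_fiber]
    simp
  simp only [h2]
  rw [← Finset.mul_sum]
  congr 1
  exact Fintype.sum_equiv Multiplicative.toAdd _ _ (fun _ => rfl)

theorem usum_valZ (C : CfgU F G) {χ : G → ℂ} (hχ : IsClassFunction G χ) {x : G} (hx : x ∈ C.Z)
    (h1 : x ≠ 1) : χ x = χ C.z0 := usum_conj hχ (C.hconjZ x hx h1)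

theorem usum_valU (C : CfgU F G) {χ : G → ℂ} (hχ : IsClassFunction G χ) {x : G} (hx : x ∈ C.Q)
    (h1 : x ∉ C.Z) : χ x = χ C.u0 := usum_conj hχ (C.hconjU x hx h1)

/-- sums over `Q` of a class function of `G` against a function of `α`. -/
theorem sum_Q (C : CfgU F G) [Fintype C.Q] {χ : G → ℂ} (hχ : IsClassFunction G χ) (w : F → ℂ) :
    ∑ x : C.Q, χ x * w (Multiplicative.toAdd (C.α x)) =
      (χ 1 + 2 * χ C.z0) * w 0 + 3 * χ C.u0 * (∑ a : F, w a - w 0) := by
  classical
  have h1 : ∀ x : C.Q, χ x * w (Multiplicative.toAdd (C.α x)) =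
      χ C.u0 * w (Multiplicative.toAdd (C.α x)) +
      ((if C.α x = 1 then (χ C.z0 - χ C.u0) * w 0 else 0) +
       (if x = 1 then (χ 1 - χ C.z0) * w 0 else 0)) := by
    intro x
    by_cases hx : C.α x = 1
    · have hxZ := (C.hαk x).1 hx
      rw [if_pos hx, hx]
      by_cases hx1 : x = 1
      · rw [if_pos hx1, hx1]
        simp only [Subgroup.coe_one, toAdd_one]
        ring
      · rw [if_neg hx1, usum_valZ C hχ hxZ (fun h => hx1 (Subtype.ext h))]
        simp only [toAdd_one]
        ring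
    · have hxZ : (x : G) ∉ C.Z := fun h => hx ((C.hαk x).2 h)
      have hx1 : x ≠ 1 := fun h => hx (by rw [h, map_one])
      rw [if_neg hx, if_neg hx1, usum_valU C hχ x.2 hxZ]
      ring
  simp only [h1]
  rw [Finset.sum_add_distrib, Finset.sum_add_distrib, ← Finset.mul_sum, usum_comp,
    ← Finset.sum_filter, Finset.sum_const, usum_fiber, Finset.sum_ite_eq' Finset.univ (1 : C.Q)]
  simp only [Finset.mem_univ, if_true, nsmul_eq_mul]
  push_cast
  ring

/-- sums over `Z`. -/
theorem sum_Z (C : CfgU F G) [Fintype C.Z] {χ : G → ℂ} (hχ : IsClassFunction G χ) (w : C.Z → ℂ) :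
    ∑ x : C.Z, χ x * w x = χ 1 * w 1 + χ C.z0 * (∑ x : C.Z, w x - w 1) := by
  classical
  have h1 : ∀ x : C.Z, χ x * w x = χ C.z0 * w x + (if x = 1 then (χ 1 - χ C.z0) * w 1 else 0) := by
    intro x
    by_cases hx1 : x = 1
    · rw [if_pos hx1, hx1]
      simp only [Subgroup.coe_one]
      ring
    · rw [if_neg hx1, usum_valZ C hχ x.2 (fun h => hx1 (Subtype.ext h))]
      ring
  simp only [h1]
  rw [Finset.sum_add_distrib, ← Finset.mul_sum, Finset.sum_ite_eq' Finset.univ (1 : C.Z)]
  simp only [Finset.mem_univ, if_true]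
  ring

end Cfsg.Agent.Lib.Helper44.U33
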