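import Cfsg.Agent.Lib.Helper44.U33.UCORE
import Cfsg.Agent.Lib.Helper44.U33.UNONC
import Cfsg.Agent.Lib.Helper44.U33.UGRAM
import Cfsg.Agent.Lib.Helper44.U33.UTRIV
import Cfsg.Prelude.Def_DegreeGraph

set_option autoImplicit false

namespace Cfsg.Agent.Lib.Helper44.U33

open Cfsg
open scoped ComplexConjugate

variable {F : Type*} [Field F] [Fintype F] {G : Type*} [Group G]

theorem charDegree_eq' {χ : G → ℂ} {d : ℕ} (h : χ 1 = d) : charDegree χ = d := by
  unfold charDegree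
  rw [h]
  simp

theorem degrees_aux [Fintype G] (C : CfgU F G) :
    ∃ d1 d2 d3 : ℕ, d1 ∈ Cfsg.charDegrees G ∧ d2 ∈ Cfsg.charDegrees G ∧ d3 ∈ Cfsg.charDegrees G ∧
      6 ∣ d1 ∧ 14 ∣ d2 ∧ 21 ∣ d3 := by
  classical
  have hch : ∀ χ : IrrCharacter G, IsCharacter G (χ : G → ℂ) :=
    fun χ => Cfsg.Agent.Lib.Helper20.isCharacter_of_isIrrCharacter χ.2
  choose l hl using fun χ : IrrCharacter G => lU_nat C (hch χ)
  choose a ha using fun χ : IrrCharacter G => aU_nat C (hch χ)
  choose b hb using fun χ : IrrCharacter G => bU_nat C (hch χ)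
  have hdeg : ∀ χ : IrrCharacter G, (χ : G → ℂ) 1 = ((l χ + 8 * a χ + 6 * b χ : ℕ) : ℂ) := by
    intro χ
    rw [degree_eq C χ, hl, ha, hb]
    push_cast
    ring
  obtain ⟨χ0, hχ0⟩ := exists_triv C
  have key := core_aux (ι := IrrCharacter G)
    (fun χ => (l χ : ℤ)) (fun χ => (a χ : ℤ)) (fun χ => (b χ : ℤ)) χ0
    (fun χ => Int.natCast_nonneg _) (fun χ => Int.natCast_nonneg _) ?_ ?_ ?_ ?_ ?_ ?_ ?_ ?_ ?_ ?_
  · obtain ⟨⟨χ1, h1, h2, h3⟩, ⟨χ2, k1, k2, k3⟩, ⟨χ3, m1, m2, m3⟩⟩ := key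
    have h1' : l χ1 = 2 := by exact_mod_cast h1
    have h2' : a χ1 = 1 := by exact_mod_cast h2
    have h3' : b χ1 = 3 := by exact_mod_cast h3
    have k1' : l χ2 = 1 := by exact_mod_cast k1
    have k2' : a χ2 = 1 := by exact_mod_cast k2
    have k3' : b χ2 = 2 := by exact_mod_cast k3
    have m1' : l χ3 = 0 := by exact_mod_cast m1
    have m2' : a χ3 = 0 := by exact_mod_cast m2
    refine ⟨l χ3 + 8 * a χ3 + 6 * b χ3, l χ1 + 8 * a χ1 + 6 * b χ1, l χ2 + 8 * a χ2 + 6 * b χ2,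
      ⟨χ3, charDegree_eq' (hdeg χ3)⟩, ⟨χ1, charDegree_eq' (hdeg χ1)⟩,
      ⟨χ2, charDegree_eq' (hdeg χ2)⟩, ?_, ?_, ?_⟩
    · rw [m1', m2']
      exact ⟨b χ3, by ring⟩
    · rw [h1', h2', h3']
      norm_num
    · rw [k1', k2', k3']
  · have := gram_ll C
    simp only [hl, Complex.conj_natCast] at this
    exact_mod_cast this
  · have := gram_la C
    simp only [hl, ha, Complex.conj_natCast] at this
    exact_mod_cast this
  · have := gram_aa C
    simp only [ha, Complex.conj_natCast] at this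
    exact_mod_cast this
  · have := gram_lb C
    simp only [hl, hb, Complex.conj_natCast] at this
    exact_mod_cast this
  · have := gram_ab C
    simp only [ha, hb, Complex.conj_natCast] at this
    exact_mod_cast this
  · have := gram_bb C
    simp only [hb, Complex.conj_natCast] at this
    exact_mod_cast this
  · intro χ h
    have h' : lU C χ ≠ 0 := by
      rw [hl]
      exact_mod_cast h
    rcases noncusp C χ h' with ⟨h1, h2, h3⟩ | ⟨h1, h2, h3⟩ | ⟨h1, h2, h3⟩ | ⟨h1, h2, h3⟩ |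
      ⟨h1, h2, h3⟩
    · left
      rw [hl] at h1; rw [ha] at h2; rw [hb] at h3
      exact ⟨by exact_mod_cast h1, by exact_mod_cast h2, by exact_mod_cast h3⟩
    · right; left
      rw [hl] at h1; rw [ha] at h2; rw [hb] at h3
      exact ⟨by exact_mod_cast h1, by exact_mod_cast h2, by exact_mod_cast h3⟩
    · right; right; left
      rw [hl] at h1; rw [ha] at h2; rw [hb] at h3
      exact ⟨by exact_mod_cast h1, by exact_mod_cast h2, by exact_mod_cast h3⟩
    · right; right; right; left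
      rw [hl] at h1; rw [ha] at h2; rw [hb] at h3
      exact ⟨by exact_mod_cast h1, by exact_mod_cast h2, by exact_mod_cast h3⟩
    · right; right; right; right
      rw [hl] at h1; rw [ha] at h2; rw [hb] at h3
      exact ⟨by exact_mod_cast h1, by exact_mod_cast h2, by exact_mod_cast h3⟩
  · have e1 : lU C χ0 = 1 := by
      unfold lU
      rw [hχ0, hχ0, hχ0]
      norm_num
    have e2 : aU C χ0 = 0 := by
      unfold aU
      rw [hχ0, hχ0, hχ0]
      norm_num
    have e3 : bU C χ0 = 0 := by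
      unfold bU
      rw [hχ0, hχ0]
      norm_num
    rw [hl] at e1; rw [ha] at e2; rw [hb] at e3
    exact ⟨by exact_mod_cast e1, by exact_mod_cast e2, by exact_mod_cast e3⟩
  · rintro χ ⟨h1, h2, h3⟩
    apply eq_of_degree_one C χ χ0 _ (hχ0 1)
    have h1' : l χ = 1 := by exact_mod_cast h1
    have h2' : a χ = 0 := by exact_mod_cast h2
    have h3' : b χ = 0 := by exact_mod_cast h3
    rw [hdeg χ, h1', h2', h3']
    simp
  · intro χ
    obtain ⟨d, hd1, hd2, hd3⟩ := Cfsg.Agent.Lib.Helper77.irr_degree_dvd χ.2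
    have e : d = l χ + 8 * a χ + 6 * b χ := by
      have := hdeg χ
      rw [hd1] at this
      exact_mod_cast this
    rw [C.hcard, e] at hd2
    exact_mod_cast hd2

theorem degrees (C : CfgU F G) :
    ∃ d1 d2 d3 : ℕ, d1 ∈ Cfsg.charDegrees G ∧ d2 ∈ Cfsg.charDegrees G ∧ d3 ∈ Cfsg.charDegrees G ∧
      6 ∣ d1 ∧ 14 ∣ d2 ∧ 21 ∣ d3 := by
  have : Finite G := Nat.finite_of_card_ne_zero (by rw [C.hcard]; norm_num)
  have := Fintype.ofFinite G
  exact degrees_aux C

end Cfsg.Agent.Lib.Helper44.U33
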